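import Mathlib
import Cfsg.Prelude.Def_LieTypeDatum
import Cfsg.Agent.Lib.Helper17.Symp
import Cfsg.Agent.Lib.Helper17.SympFrame
import Cfsg.Agent.Lib.Helper43.PSpRank

set_option autoImplicit false

/-!
Automorphisms of `PSp_{2m}(F)`: basic API (action on vectors, transvections, centre).
-/

namespace Cfsg.Agent.Lib.Helper18.AutPSp

open Matrix Cfsg.Agent.Lib.Helper17

variable {F : Type*} [Field F] {m : ℕ}

/-- the natural module -/
abbrev V (m : ℕ) (F : Type*) := Fin m ⊕ Fin m → F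

/-- the symplectic group -/
abbrev Sp (m : ℕ) (F : Type*) [Field F] := ↥(Matrix.symplecticGroup (Fin m) F)

/-- the alternating form -/
abbrev B (x y : V m F) : F := Cfsg.sympForm m F x y

theorem B_add_left (x y z : V m F) : B (x + y) z = B x z + B y z := sympForm_add_left m x y z
theorem B_add_right (x y z : V m F) : B x (y + z) = B x y + B x z := sympForm_add_right m x y z
theorem B_sub_left (x y z : V m F) : B (x - y) z = B x z - B y z := sympForm_sub_left m x y z
theorem B_sub_right (x y z : V m F) : B x (y - z) = B x y - B x z := sympForm_sub_right m x y z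
theorem B_smul_left (a : F) (x z : V m F) : B (a • x) z = a * B x z := sympForm_smul_left m a x z
theorem B_smul_right (a : F) (x z : V m F) : B x (a • z) = a * B x z := sympForm_smul_right m a x z
theorem B_self (x : V m F) : B x x = 0 := sympForm_self m x
theorem B_swap (x y : V m F) : B x y = - B y x := sympForm_swap m x y
theorem B_zero_left (x : V m F) : B 0 x = 0 := sympForm_zero_left m x
theorem B_zero_right (x : V m F) : B x 0 = 0 := sympForm_zero_right m x
theorem B_neg_left (x y : V m F) : B (-x) y = - B x y := by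
  have := B_smul_left (-1 : F) x y
  simpa using this
theorem B_neg_right (x y : V m F) : B x (-y) = - B x y := by
  have := B_smul_right (-1 : F) x y
  simpa using this

theorem B_eq_zero_comm {x y : V m F} : B x y = 0 ↔ B y x = 0 := by
  rw [B_swap x y, neg_eq_zero]

theorem eq_zero_of_B_left {u : V m F} (h : ∀ v, B u v = 0) : u = 0 := sympForm_left_eq_zero m h

theorem eq_zero_of_B_right {u : V m F} (h : ∀ v, B v u = 0) : u = 0 :=
  eq_zero_of_B_left fun v => B_eq_zero_comm.1 (h v)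

theorem exists_B_eq_one {v : V m F} (hv : v ≠ 0) : ∃ x : V m F, B x v = 1 := by
  by_contra hcon
  apply hv
  apply eq_zero_of_B_right
  intro x
  by_contra hx
  exact hcon ⟨(B x v)⁻¹ • x, by rw [B_smul_left, inv_mul_cancel₀ hx]⟩

/-- the action on vectors -/
def ac (g : Sp m F) (x : V m F) : V m F := (g : Matrix (Fin m ⊕ Fin m) (Fin m ⊕ Fin m) F) *ᵥ x

@[inherit_doc] infixr:73 " ∙ " => ac

theorem ac_mul (g h : Sp m F) (x : V m F) : (g * h) ∙ x = g ∙ (h ∙ x) := sp_coe_mul_mulVec m g h x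
theorem ac_one (x : V m F) : (1 : Sp m F) ∙ x = x := by
  show ((1 : Sp m F) : Matrix (Fin m ⊕ Fin m) (Fin m ⊕ Fin m) F) *ᵥ x = x
  rw [Submonoid.coe_one, Matrix.one_mulVec]
theorem ac_inv_ac (g : Sp m F) (x : V m F) : g⁻¹ ∙ (g ∙ x) = x := sp_inv_mulVec m g x
theorem ac_ac_inv (g : Sp m F) (x : V m F) : g ∙ (g⁻¹ ∙ x) = x := sp_mulVec_inv m g x
theorem ac_add (g : Sp m F) (x y : V m F) : g ∙ (x + y) = g ∙ x + g ∙ y := Matrix.mulVec_add _ _ _
theorem ac_sub (g : Sp m F) (x y : V m F) : g ∙ (x - y) = g ∙ x - g ∙ y := Matrix.mulVec_sub _ _ _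
theorem ac_smul (g : Sp m F) (a : F) (x : V m F) : g ∙ (a • x) = a • g ∙ x := Matrix.mulVec_smul _ _ _
theorem ac_zero (g : Sp m F) : g ∙ (0 : V m F) = 0 := Matrix.mulVec_zero _
theorem ac_neg (g : Sp m F) (x : V m F) : g ∙ (-x) = -(g ∙ x) := Matrix.mulVec_neg _ _
theorem B_ac (g : Sp m F) (x y : V m F) : B (g ∙ x) (g ∙ y) = B x y := sp_sympForm m g x y

theorem B_ac_left (g : Sp m F) (x y : V m F) : B (g ∙ x) y = B x (g⁻¹ ∙ y) := by
  rw [← B_ac g x (g⁻¹ ∙ y), ac_ac_inv]

theorem B_ac_right (g : Sp m F) (x y : V m F) : B x (g ∙ y) = B (g⁻¹ ∙ x) y := by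
  rw [← B_ac g (g⁻¹ ∙ x) y, ac_ac_inv]

theorem ac_injective (g : Sp m F) : Function.Injective (fun x : V m F => g ∙ x) := by
  intro x y h
  have := congrArg (fun z => g⁻¹ ∙ z) h
  simpa only [ac_inv_ac] using this

theorem ac_eq_zero_iff (g : Sp m F) {x : V m F} : g ∙ x = 0 ↔ x = 0 := by
  constructor
  · intro h
    apply ac_injective g
    show g ∙ x = g ∙ 0
    rw [h, ac_zero]
  · rintro rfl
    exact ac_zero g

theorem sp_ext {g h : Sp m F} (H : ∀ x, g ∙ x = h ∙ x) : g = h := by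
  apply Subtype.ext
  rw [Matrix.ext_iff_mulVec]
  exact H

theorem ac_pow_of_eigen (g : Sp m F) {x : V m F} {a : F} (h : g ∙ x = a • x) (k : ℕ) :
    (g ^ k) ∙ x = a ^ k • x := by
  induction k with
  | zero => rw [pow_zero, pow_zero, ac_one, one_smul]
  | succ k ih => rw [pow_succ, ac_mul, h, ac_smul, ih, smul_smul, pow_succ, mul_comm]

/-- the linear map of an element -/
def acL (g : Sp m F) : V m F →ₗ[F] V m F where
  toFun x := g ∙ x
  map_add' := ac_add g
  map_smul' a x := ac_smul g a x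

@[simp] theorem acL_apply (g : Sp m F) (x : V m F) : acL g x = g ∙ x := rfl

/-- build an element from a linear isometry -/
noncomputable def mkSp (g : V m F →ₗ[F] V m F) (hg : ∀ u v, B (g u) (g v) = B u v) : Sp m F :=
  spOfLinear m g hg

theorem ac_mkSp (g : V m F →ₗ[F] V m F) (hg : ∀ u v, B (g u) (g v) = B u v) (x : V m F) :
    mkSp g hg ∙ x = g x := spOfLinear_mulVec m g hg x

/-! ### transvections -/

/-- symplectic transvection `x ↦ x + a B(x,v) v` -/
def tv (v : V m F) (a : F) : Sp m F := ⟨Cfsg.sympTransvection m v a, sympTransvection_mem m v a⟩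

theorem ac_tv (v : V m F) (a : F) (x : V m F) : tv v a ∙ x = x + (a * B x v) • v :=
  sympTransvection_mulVec m v a x

theorem tv_mul (v : V m F) (a b : F) : tv v a * tv v b = tv v (a + b) :=
  Subtype.ext (sympTransvection_mul m v a b)

theorem tv_zero (v : V m F) : tv v 0 = 1 := by
  apply sp_ext
  intro x
  rw [ac_tv, ac_one, zero_mul, zero_smul, add_zero]

theorem tv_zero_left (a : F) : tv (0 : V m F) a = 1 := by
  apply sp_ext
  intro x
  rw [ac_tv, ac_one, smul_zero, add_zero]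

theorem tv_inv (v : V m F) (a : F) : (tv v a)⁻¹ = tv v (-a) := by
  rw [inv_eq_iff_mul_eq_one, tv_mul, add_neg_cancel, tv_zero]

theorem tv_conj (g : Sp m F) (v : V m F) (a : F) : g * tv v a * g⁻¹ = tv (g ∙ v) a := by
  apply sp_ext
  intro x
  rw [ac_mul, ac_mul, ac_tv, ac_tv, ac_add, ac_ac_inv, ac_smul, B_ac_right]

theorem tv_smul (l : F) (v : V m F) (a : F) : tv (l • v) a = tv v (l ^ 2 * a) := by
  apply sp_ext
  intro x
  rw [ac_tv, ac_tv, B_smul_right, smul_smul]
  congr 2
  ring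

theorem tv_pow (v : V m F) (a : F) (k : ℕ) : tv v a ^ k = tv v (k * a) := by
  induction k with
  | zero => rw [pow_zero, Nat.cast_zero, zero_mul, tv_zero]
  | succ k ih => rw [pow_succ, ih, tv_mul]; congr 1; push_cast; ring

theorem tv_pow_char (p : ℕ) [CharP F p] (v : V m F) (a : F) : tv v a ^ p = 1 := by
  rw [tv_pow, CharP.cast_eq_zero, zero_mul, tv_zero]

theorem tv_eq_one_iff {v : V m F} {a : F} : tv v a = 1 ↔ v = 0 ∨ a = 0 := by
  constructor
  · intro h
    by_contra hcon
    push Not at hcon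
    obtain ⟨x, hx⟩ := exists_B_eq_one hcon.1
    have h1 := congrArg (fun g => g ∙ x) h
    simp only [ac_tv, ac_one, hx, mul_one] at h1
    have h2 : a • v = 0 := by simpa using h1
    rcases smul_eq_zero.1 h2 with h3 | h3
    · exact hcon.2 h3
    · exact hcon.1 h3
  · rintro (rfl | rfl)
    · exact tv_zero_left a
    · exact tv_zero v

/-- the centre of a nontrivial transvection is well defined -/
theorem parallel_of_tv_eq {v w : V m F} {a b : F} (h : tv v a = tv w b) (hv : v ≠ 0) (ha : a ≠ 0) :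
    ∃ l : F, l ≠ 0 ∧ w = l • v := by
  obtain ⟨x, hx⟩ := exists_B_eq_one hv
  have h1 := congrArg (fun g => g ∙ x) h
  simp only [ac_tv, hx, mul_one] at h1
  have h2 : a • v = (b * B x w) • w := add_left_cancel h1
  have h3 : b * B x w ≠ 0 := by
    intro h0
    rw [h0, zero_smul] at h2
    rcases smul_eq_zero.1 h2 with h3 | h3
    · exact ha h3
    · exact hv h3
  refine ⟨(b * B x w)⁻¹ * a, mul_ne_zero (inv_ne_zero h3) ha, ?_⟩
  rw [mul_smul, h2, smul_smul, inv_mul_cancel₀ h3, one_smul]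

/-! ### the quotient -/

/-- the projection `Sp → PSp` -/
abbrev pm (x : Sp m F) : Cfsg.PSp m F := QuotientGroup.mk x

theorem pm_mul (x y : Sp m F) : pm (x * y) = pm x * pm y := rfl
theorem pm_inv (x : Sp m F) : pm x⁻¹ = (pm x)⁻¹ := rfl
theorem pm_one : pm (1 : Sp m F) = 1 := rfl
theorem pm_pow (x : Sp m F) (k : ℕ) : pm (x ^ k) = pm x ^ k := rfl

theorem pm_surjective : Function.Surjective (pm : Sp m F → _) := QuotientGroup.mk_surjective

theorem exists_eps_of_mem_center {z : Sp m F} (hz : z ∈ Subgroup.center (Sp m F)) :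
    ∃ ε : F, ε ^ 2 = 1 ∧ ∀ x, z ∙ x = ε • x := by
  rcases Cfsg.Agent.Lib.Helper43.sp_center_coe m z hz with h | h
  · refine ⟨1, one_pow 2, fun x => ?_⟩
    show (z : Matrix (Fin m ⊕ Fin m) (Fin m ⊕ Fin m) F) *ᵥ x = _
    rw [h, Matrix.one_mulVec, one_smul]
  · refine ⟨-1, by ring, fun x => ?_⟩
    show (z : Matrix (Fin m ⊕ Fin m) (Fin m ⊕ Fin m) F) *ᵥ x = _
    rw [h, Matrix.neg_mulVec, Matrix.one_mulVec, neg_smul, one_smul]

theorem mem_center_of_scalar {z : Sp m F} {ε : F} (h : ∀ x, z ∙ x = ε • x) :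
    z ∈ Subgroup.center (Sp m F) := by
  rw [Subgroup.mem_center_iff]
  intro g
  apply sp_ext
  intro x
  rw [ac_mul, ac_mul, h, h, ac_smul]

theorem exists_eps_of_pm_eq {x y : Sp m F} (h : pm x = pm y) :
    ∃ ε : F, ε ^ 2 = 1 ∧ ∀ v, y ∙ v = ε • x ∙ v := by
  rw [QuotientGroup.eq] at h
  obtain ⟨ε, h1, h2⟩ := exists_eps_of_mem_center h
  refine ⟨ε, h1, fun v => ?_⟩
  have := h2 v
  rw [ac_mul] at this
  have h3 := congrArg (fun z => x ∙ z) this
  simp only [ac_ac_inv, ac_smul] at h3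
  exact h3

theorem pm_eq_of_smul {x y : Sp m F} {ε : F} (h : ∀ v, y ∙ v = ε • x ∙ v) : pm x = pm y := by
  rw [QuotientGroup.eq]
  apply mem_center_of_scalar (ε := ε)
  intro v
  rw [ac_mul, h, ac_smul, ac_inv_ac]

/-- `pm` is injective on elements of order dividing `p` -/
theorem eq_of_pm_eq (p : ℕ) [Fact p.Prime] [CharP F p] (hm : 1 ≤ m) {x y : Sp m F} (h : pm x = pm y)
    (hx : x ^ p = 1) (hy : y ^ p = 1) : x = y := by
  rw [QuotientGroup.eq] at h
  obtain ⟨ε, h1, h2⟩ := exists_eps_of_mem_center h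
  set z := x⁻¹ * y with hz
  have hy' : y = x * z := by rw [hz]; group
  have hc : Commute x z := (Subgroup.mem_center_iff.1 h x)
  have hzp : z ^ p = 1 := by
    have := hc.mul_pow p
    rw [← hy', hy, hx, one_mul] at this
    exact this.symm
  have hε : ε ^ p = 1 := by
    have hv : (Pi.single (Sum.inl ⟨0, hm⟩) 1 : V m F) ≠ 0 := by
      intro h0
      have := congrFun h0 (Sum.inl ⟨0, hm⟩)
      simp at this
    have h3 := ac_pow_of_eigen z (h2 _) p (x := (Pi.single (Sum.inl ⟨0, hm⟩) 1 : V m F))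
    rw [hzp, ac_one] at h3
    have h4 : (ε ^ p - 1) • (Pi.single (Sum.inl ⟨0, hm⟩) 1 : V m F) = 0 := by
      rw [sub_smul, one_smul, ← h3, sub_self]
    rcases smul_eq_zero.1 h4 with h5 | h5
    · exact sub_eq_zero.1 h5
    · exact absurd h5 hv
  have hε1 : ε = 1 := by
    have h5 : (ε - 1) ^ p = 0 := by rw [sub_pow_char, hε, one_pow, sub_self]
    exact sub_eq_zero.1 (pow_eq_zero_iff (Fact.out : p.Prime).ne_zero |>.1 h5)
  have hz1 : z = 1 := by
    apply sp_ext
    intro v
    rw [h2, hε1, one_smul, ac_one]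
  rw [hy', hz1, mul_one]

theorem pm_tv_eq_one_iff (p : ℕ) [Fact p.Prime] [CharP F p] (hm : 1 ≤ m) {v : V m F} {a : F} :
    pm (tv v a) = 1 ↔ v = 0 ∨ a = 0 := by
  rw [← tv_eq_one_iff]
  constructor
  · intro h
    exact eq_of_pm_eq p hm (h.trans pm_one.symm) (tv_pow_char p v a) (one_pow p)
  · intro h
    rw [h]
    rfl

/-! ### double perpendiculars -/

/-- `B(·, u)` as a linear form -/
def Bl (u : V m F) : V m F →ₗ[F] F where
  toFun x := B x u
  map_add' x y := B_add_left x y u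
  map_smul' a x := B_smul_left a x u

@[simp] theorem Bl_apply (u x : V m F) : Bl u x = B x u := rfl

theorem mem_span_of_perp {ι : Type*} [Fintype ι] (u : ι → V m F) (w : V m F)
    (h : ∀ z, (∀ i, B z (u i) = 0) → B z w = 0) : ∃ c : ι → F, w = ∑ i, c i • u i := by
  have h1 : Bl w ∈ Submodule.span F (Set.range fun i => Bl (u i)) := by
    apply mem_span_of_iInf_ker_le_ker
    intro z hz
    rw [Submodule.mem_iInf] at hz
    exact h z hz
  obtain ⟨c, hc⟩ := (Submodule.mem_span_range_iff_exists_fun F).1 h1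
  refine ⟨c, ?_⟩
  rw [← sub_eq_zero]
  apply eq_zero_of_B_right
  intro x
  have h2 := LinearMap.congr_fun hc x
  rw [B_sub_right]
  simp only [LinearMap.sum_apply, LinearMap.smul_apply, Bl_apply, smul_eq_mul] at h2
  rw [← h2, sub_eq_zero]
  have h3 : ∀ s : Finset ι, B x (∑ i ∈ s, c i • u i) = ∑ i ∈ s, c i * B x (u i) := by
    intro s
    induction s using Finset.cons_induction with
    | empty => simp [B_zero_right]
    | cons a s ha ih => rw [Finset.sum_cons, Finset.sum_cons, B_add_right, B_smul_right, ih]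
  rw [h3]

theorem mem_span_one_of_perp (u w : V m F) (h : ∀ z, B z u = 0 → B z w = 0) :
    ∃ c : F, w = c • u := by
  obtain ⟨c, hc⟩ := mem_span_of_perp (fun _ : Unit => u) w (fun z hz => h z (hz ()))
  exact ⟨c (), by simpa using hc⟩

theorem mem_span_two_of_perp (u v w : V m F) (h : ∀ z, B z u = 0 → B z v = 0 → B z w = 0) :
    ∃ c d : F, w = c • u + d • v := by
  obtain ⟨c, hc⟩ := mem_span_of_perp ![u, v] w (fun z hz => h z (hz 0) (hz 1))
  exact ⟨c 0, c 1, by simpa [Fin.sum_univ_two] using hc⟩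

/-- a linear map fixing every point of a submodule is a scalar on it -/
theorem exists_scalar_on (S : Submodule F (V m F)) (L : V m F →ₗ[F] V m F)
    (h : ∀ w ∈ S, ∃ c : F, L w = c • w) : ∃ c : F, ∀ w ∈ S, L w = c • w := by
  have hS : ∀ w ∈ S, L w ∈ S := by
    intro w hw
    obtain ⟨c, hc⟩ := h w hw
    rw [hc]
    exact S.smul_mem c hw
  obtain ⟨a, ha⟩ := LinearMap.exists_eq_smul_id_of_forall_notLinearIndependent
    (f := L.restrict hS) (fun v => by
      by_cases hv : v = 0
      · simp [hv, linearIndependent_fin2]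
      · rw [LinearIndependent.pair_iff' hv]
        push Not
        obtain ⟨c, hc⟩ := h v v.2
        exact ⟨c, Subtype.ext (by simpa using hc.symm)⟩)
  refine ⟨a, fun w hw => ?_⟩
  have := congrArg (fun f => ((f ⟨w, hw⟩ : S) : V m F)) ha
  simpa using this

end Cfsg.Agent.Lib.Helper18.AutPSp
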