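import Mathlib
import Cfsg.Agent.Lib.Helper18.AutPSp.Basic

set_option autoImplicit false

/-!
Siegel elements of `Sp_{2m}(F)`: the unipotent radical of a point stabiliser.
-/

namespace Cfsg.Agent.Lib.Helper18.AutPSp

open Matrix Cfsg.Agent.Lib.Helper17

variable {F : Type*} [Field F] {m : ℕ}

theorem B_ac_fix {g : Sp m F} {e : V m F} (h : g ∙ e = e) (x : V m F) : B (g ∙ x) e = B x e := by
  conv_lhs => rw [← h]
  exact B_ac g x e

/-- Siegel element: `x ↦ x + B(x,e)(y + b e) + B(x,y) e` for `y ⊥ e` -/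
def sg (e y : V m F) (b : F) : Sp m F := tv (y + e) 1 * tv y (-1) * tv e (b - 1)

theorem ac_sg {e y : V m F} (h : B y e = 0) (b : F) (x : V m F) :
    sg e y b ∙ x = x + B x e • (y + b • e) + B x y • e := by
  have h' : B e y = 0 := B_eq_zero_comm.1 h
  simp only [sg, ac_mul, ac_tv, B_add_left, B_add_right, B_smul_left, B_self, h, h']
  module

theorem sg_conj (g : Sp m F) (e y : V m F) (b : F) :
    g * sg e y b * g⁻¹ = sg (g ∙ e) (g ∙ y) b := by
  have : g * sg e y b * g⁻¹ = (g * tv (y + e) 1 * g⁻¹) * (g * tv y (-1) * g⁻¹) *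
      (g * tv e (b - 1) * g⁻¹) := by
    rw [sg]; group
  rw [this, tv_conj, tv_conj, tv_conj, ac_add, sg]

theorem sg_mul {e y y' : V m F} (h : B y e = 0) (h' : B y' e = 0) (b b' : F) :
    sg e y b * sg e y' b' = sg e (y + y') (b + b' + B y' y) := by
  apply sp_ext
  intro x
  have h2 : B (y + y') e = 0 := by rw [B_add_left, h, h', add_zero]
  have h3 : B e y = 0 := B_eq_zero_comm.1 h
  rw [ac_mul, ac_sg h, ac_sg h', ac_sg h2]
  simp only [B_add_left, B_add_right, B_smul_left, B_self, h', h3]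
  module

theorem sg_zero (e : V m F) (b : F) : sg e 0 b = tv e b := by
  apply sp_ext
  intro x
  rw [ac_sg (B_zero_left e), ac_tv, B_zero_right]
  module

theorem sg_zero_zero (e : V m F) : sg e 0 0 = 1 := by rw [sg_zero, tv_zero]

theorem sg_pow {e y : V m F} (h : B y e = 0) (b : F) (k : ℕ) :
    sg e y b ^ k = sg e ((k : F) • y) (k * b) := by
  induction k with
  | zero => rw [pow_zero, Nat.cast_zero, zero_smul, zero_mul, sg_zero_zero]
  | succ k ih =>
    rw [pow_succ, ih, sg_mul (by rw [B_smul_left, h, mul_zero]) h, B_smul_right, B_self, mul_zero,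
      add_zero]
    congr 1
    · push_cast; module
    · push_cast; ring

theorem sg_pow_char (p : ℕ) [CharP F p] {e y : V m F} (h : B y e = 0) (b : F) :
    sg e y b ^ p = 1 := by
  rw [sg_pow h, CharP.cast_eq_zero, zero_smul, zero_mul, sg_zero_zero]

theorem sg_inv {e y : V m F} (h : B y e = 0) (b : F) : (sg e y b)⁻¹ = sg e (-y) (-b) := by
  rw [inv_eq_iff_mul_eq_one, sg_mul h (by rw [B_neg_left, h, neg_zero]), B_neg_left, B_self]
  simp [sg_zero_zero]

theorem sg_add_smul {e y : V m F} (h : B y e = 0) (l b : F) :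
    sg e (y + l • e) b = sg e y (b + 2 * l) := by
  apply sp_ext
  intro x
  rw [ac_sg (by rw [B_add_left, h, B_smul_left, B_self, mul_zero, add_zero]), ac_sg h, B_add_right,
    B_smul_right]
  module

theorem sg_smul_left {e y : V m F} (h : B y e = 0) (l b : F) :
    sg (l • e) y b = sg e (l • y) (l ^ 2 * b) := by
  apply sp_ext
  intro x
  rw [ac_sg (by rw [B_smul_right, h, mul_zero]), ac_sg (by rw [B_smul_left, h, mul_zero]),
    B_smul_right, B_smul_right]
  module

theorem sg_inj {e f y y' : V m F} {b b' : F} (hef : B f e = 1) (h : B y e = 0) (h' : B y' e = 0)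
    (hf : B y f = 0) (hf' : B y' f = 0) (H : sg e y b = sg e y' b') : y = y' ∧ b = b' := by
  have h1 := congrArg (fun g => g ∙ f) H
  simp only [ac_sg h, ac_sg h', hef, B_eq_zero_comm.1 hf, B_eq_zero_comm.1 hf', one_smul, zero_smul,
    add_zero] at h1
  have h2 : y + b • e = y' + b' • e := add_left_cancel h1
  have h3 := congrArg (fun z => B f z) h2
  simp only [B_add_right, B_smul_right, hef, B_eq_zero_comm.1 hf, B_eq_zero_comm.1 hf', zero_add,
    mul_one] at h3
  refine ⟨?_, h3⟩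
  rw [h3] at h2
  exact add_right_cancel h2

/-- elements acting trivially on `e` and on `e^⊥/e` are Siegel elements -/
theorem exists_eq_sg {e : V m F} (he : e ≠ 0) (g : Sp m F) (hge : g ∙ e = e)
    (hg : ∀ y, B y e = 0 → ∃ c : F, g ∙ y = y + c • e) :
    ∃ (y : V m F) (b : F), B y e = 0 ∧ g = sg e y b := by
  obtain ⟨f, hf⟩ := exists_B_eq_one he
  set d := g ∙ f - f with hd
  have hgf : g ∙ f = f + d := by rw [hd]; abel
  have hde : B d e = 0 := by
    rw [hd, B_sub_left, hf, B_ac_fix hge, hf, sub_self]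
  refine ⟨d, - B f d, hde, ?_⟩
  apply sp_ext
  intro x
  rw [ac_sg hde]
  set t := B x e with ht
  set y := x - t • f with hy
  have hye : B y e = 0 := by rw [hy, B_sub_left, B_smul_left, hf, mul_one, ht, sub_self]
  obtain ⟨c, hc⟩ := hg y hye
  have hc' : c = B y d := by
    have h1 := B_ac g y f
    rw [hc, hgf] at h1
    simp only [B_add_left, B_add_right, B_smul_left, B_eq_zero_comm.1 hde, mul_zero, add_zero] at h1
    have h2 : B e f = -1 := by rw [B_swap, hf]
    rw [h2] at h1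
    linear_combination -h1
  have hx : x = y + t • f := by rw [hy]; abel
  have h3 : B x d = B y d + t * B f d := by
    conv_lhs => rw [hx]
    rw [B_add_left, B_smul_left]
  rw [h3]
  conv_lhs => rw [hx]
  rw [ac_add, ac_smul, hc, hgf, hc']
  conv_rhs => rw [hx]
  module

/-! ### the subgroups -/

/-- the perpendicular hyperplane -/
abbrev perp (e : V m F) : Submodule F (V m F) := LinearMap.ker (Bl e)

theorem mem_perp {e y : V m F} : y ∈ perp e ↔ B y e = 0 := Iff.rfl

/-- groups of Siegel elements -/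
def Qs (e : V m F) (S : Submodule F (V m F)) (hS : S ≤ perp e) : Subgroup (Cfsg.PSp m F) where
  carrier := {g | ∃ y ∈ S, ∃ b : F, g = pm (sg e y b)}
  one_mem' := ⟨0, S.zero_mem, 0, by rw [sg_zero_zero]; rfl⟩
  mul_mem' := by
    rintro _ _ ⟨y, hy, b, rfl⟩ ⟨y', hy', b', rfl⟩
    exact ⟨y + y', S.add_mem hy hy', _, by rw [← pm_mul, sg_mul (hS hy) (hS hy')]⟩
  inv_mem' := by
    rintro _ ⟨y, hy, b, rfl⟩
    exact ⟨-y, S.neg_mem hy, _, by rw [← pm_inv, sg_inv (hS hy)]⟩

theorem mem_Qs {e : V m F} {S : Submodule F (V m F)} {hS : S ≤ perp e} {g : Cfsg.PSp m F} :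
    g ∈ Qs e S hS ↔ ∃ y ∈ S, ∃ b : F, g = pm (sg e y b) := Iff.rfl

theorem isPGroup_Qs (p : ℕ) [CharP F p] (e : V m F) (S : Submodule F (V m F)) (hS : S ≤ perp e) :
    IsPGroup p (Qs e S hS) := by
  rintro ⟨_, y, hy, b, rfl⟩
  refine ⟨1, Subtype.ext ?_⟩
  show (pm (sg e y b)) ^ (p ^ 1) = 1
  rw [pow_one, ← pm_pow, sg_pow_char p (hS hy)]
  rfl

/-- the full unipotent radical -/
abbrev Q (e : V m F) : Subgroup (Cfsg.PSp m F) := Qs e (perp e) le_rfl

theorem pm_mem_normalizer_Q {e : V m F} {s : Sp m F} (hs : s ∙ e = e) :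
    pm s ∈ Subgroup.normalizer (Q e : Set (Cfsg.PSp m F)) := by
  have key : ∀ t : Sp m F, t ∙ e = e → ∀ x ∈ Q e, pm t * x * (pm t)⁻¹ ∈ Q e := by
    rintro t ht _ ⟨y, hy, b, rfl⟩
    refine ⟨t ∙ y, ?_, b, ?_⟩
    · rw [mem_perp, B_ac_fix ht]
      exact hy
    · rw [← pm_inv, ← pm_mul, ← pm_mul, sg_conj, ht]
  rw [Subgroup.mem_normalizer_iff]
  intro x
  refine ⟨key s hs x, fun hx => ?_⟩
  have hs' : s⁻¹ ∙ e = e := by
    nth_rewrite 1 [← hs]
    rw [ac_inv_ac]
  have := key s⁻¹ hs' _ hx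
  rw [pm_inv] at this
  simpa [mul_assoc] using this

end Cfsg.Agent.Lib.Helper18.AutPSp
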