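import Mathlib
import Cfsg.Agent.Lib.Helper18.AutPSp.Siegel

set_option autoImplicit false

/-!
Elements of `PSp` centralising the unipotent radical of a point stabiliser.
-/

namespace Cfsg.Agent.Lib.Helper18.AutPSp

open Matrix Cfsg.Agent.Lib.Helper17

variable {F : Type*} [Field F] {m : ℕ}

/-! ### the standard basis -/

/-- standard basis vectors -/
def eb (i : Fin m) : V m F := Pi.single (Sum.inl i) 1
/-- standard basis vectors -/
def fb (i : Fin m) : V m F := Pi.single (Sum.inr i) 1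

theorem B_eb_right (x : V m F) (i : Fin m) : B x (eb i) = x (Sum.inr i) :=
  sympForm_single_inl_right m x i
theorem B_fb_right (x : V m F) (i : Fin m) : B x (fb i) = - x (Sum.inl i) :=
  sympForm_single_inr_right m x i

theorem B_eb_eb (i j : Fin m) : B (eb i : V m F) (eb j) = 0 := by
  rw [B_eb_right]; simp [eb]
theorem B_fb_fb (i j : Fin m) : B (fb i : V m F) (fb j) = 0 := by
  rw [B_fb_right]; simp [fb]
theorem B_fb_eb (i : Fin m) : B (fb i : V m F) (eb i) = 1 := by
  rw [B_eb_right]; simp [fb]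
theorem B_eb_fb (i : Fin m) : B (eb i : V m F) (fb i) = -1 := by
  rw [B_fb_right]; simp [eb]
theorem B_fb_eb_ne {i j : Fin m} (h : i ≠ j) : B (fb i : V m F) (eb j) = 0 := by
  rw [B_eb_right]; simp [fb, h.symm]
theorem B_eb_fb_ne {i j : Fin m} (h : i ≠ j) : B (eb i : V m F) (fb j) = 0 := by
  rw [B_fb_right]; simp [eb, h.symm]

theorem eb_ne_zero (i : Fin m) : (eb i : V m F) ≠ 0 := by
  intro h
  have := B_fb_eb (F := F) i
  rw [h, B_zero_right] at this
  exact zero_ne_one this

theorem fb_ne_zero (i : Fin m) : (fb i : V m F) ≠ 0 := by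
  intro h
  have := B_fb_eb (F := F) i
  rw [h, B_zero_left] at this
  exact zero_ne_one this

/-! ### transitivity -/

theorem exists_ac_eq {u v : V m F} (hu : u ≠ 0) (hv : v ≠ 0) : ∃ g : Sp m F, g ∙ u = v := by
  obtain ⟨A, hA⟩ := sp_witt_frame m (fun _ : Unit => u) (fun _ : Unit => v)
    (LinearIndependent.of_subsingleton () hu) (LinearIndependent.of_subsingleton () hv)
    (fun _ _ => by rw [sympForm_self, sympForm_self])
  exact ⟨A, hA ()⟩

theorem linearIndependent_pair_of_B {u v : V m F} (h : B u v ≠ 0) : LinearIndependent F ![u, v] := by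
  rw [LinearIndependent.pair_iff]
  intro s t hst
  have h1 := congrArg (fun z => B z v) hst
  have h2 := congrArg (fun z => B u z) hst
  simp only [B_add_left, B_add_right, B_smul_left, B_smul_right, B_self, B_zero_left, B_zero_right,
    mul_zero, add_zero, zero_add] at h1 h2
  exact ⟨(mul_eq_zero.1 h1).resolve_right h, (mul_eq_zero.1 h2).resolve_right h⟩

theorem exists_ac_pair {u v u' v' : V m F} (h : B u v ≠ 0) (h' : B u' v' = B u v) :
    ∃ g : Sp m F, g ∙ u = u' ∧ g ∙ v = v' := by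
  obtain ⟨A, hA⟩ := sp_witt_frame m ![u, v] ![u', v'] (linearIndependent_pair_of_B h)
    (linearIndependent_pair_of_B (h' ▸ h)) (by
      intro i j
      fin_cases i <;> fin_cases j
      · show B u' u' = B u u
        rw [B_self, B_self]
      · exact h'
      · show B v' u' = B v u
        rw [B_swap, h', ← B_swap]
      · show B v' v' = B v v
        rw [B_self, B_self])
  exact ⟨A, hA 0, hA 1⟩

/-! ### scalars -/

/-- the scalar `±1` -/
noncomputable def scl (l : F) (h : l ^ 2 = 1) : Sp m F :=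
  mkSp (l • LinearMap.id) (fun u v => by
    simp only [LinearMap.smul_apply, LinearMap.id_apply, B_smul_left, B_smul_right]
    rw [← mul_assoc, ← sq, h, one_mul])

theorem ac_scl (l : F) (h : l ^ 2 = 1) (x : V m F) : scl l h ∙ x = l • x := by
  rw [scl, ac_mkSp]; rfl

theorem pm_scl (l : F) (h : l ^ 2 = 1) : pm (scl l h : Sp m F) = 1 :=
  (QuotientGroup.eq_one_iff _).2 (mem_center_of_scalar (ac_scl l h))

theorem tv_inj_right {e : V m F} (he : e ≠ 0) {a b : F} (h : tv e a = tv e b) : a = b := by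
  have h1 : tv e (a - b) = 1 := by
    rw [sub_eq_add_neg, ← tv_mul, ← tv_inv, h, mul_inv_cancel]
  rcases tv_eq_one_iff.1 h1 with h2 | h2
  · exact absurd h2 he
  · exact sub_eq_zero.1 h2

theorem sg_inj_right {e y : V m F} (he : e ≠ 0) (h : B y e = 0) {a b : F}
    (H : sg e y a = sg e y b) : a = b := by
  obtain ⟨f, hf⟩ := exists_B_eq_one he
  have h1 := congrArg (fun g => g ∙ f) H
  simp only [ac_sg h, hf, one_smul] at h1
  have h2 : (a - b) • e = 0 := by
    have : a • e = b • e := by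
      have := add_right_cancel h1
      exact add_left_cancel (add_left_cancel this)
    rw [sub_smul, this, sub_self]
  rcases smul_eq_zero.1 h2 with h3 | h3
  · exact sub_eq_zero.1 h3
  · exact absurd h3 he

/-- commuting modulo the centre with an element of order `p` -/
theorem conj_eq_of_pm_commute (p : ℕ) [Fact p.Prime] [CharP F p] (hm : 1 ≤ m) {s u : Sp m F}
    (hu : u ^ p = 1) (h : pm u * pm s = pm s * pm u) : s * u * s⁻¹ = u := by
  apply eq_of_pm_eq p hm _ _ hu
  · rw [pm_mul, pm_mul, ← h, pm_inv, mul_inv_cancel_right]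
  · rw [conj_pow, hu, mul_one, mul_inv_cancel]

/-- the centraliser of `Q e` -/
theorem central_form (p : ℕ) [Fact p.Prime] [CharP F p] (hm : 1 ≤ m) {e : V m F} (he : e ≠ 0)
    (z : Cfsg.PSp m F) (hz : ∀ y ∈ Q e, y * z = z * y) :
    ∃ (y₀ : V m F) (b₀ : F), B y₀ e = 0 ∧ z = pm (sg e y₀ b₀) ∧ ∀ y, B y e = 0 → 2 * B y y₀ = 0 := by
  obtain ⟨s, rfl⟩ := pm_surjective z
  have h1 : ∀ y, B y e = 0 → ∀ b, sg (s ∙ e) (s ∙ y) b = sg e y b := by
    intro y hy b
    rw [← sg_conj]
    exact conj_eq_of_pm_commute p hm (sg_pow_char p hy b) (hz _ ⟨y, hy, b, rfl⟩)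
  obtain ⟨l, hl0, hl⟩ : ∃ l : F, l ≠ 0 ∧ s ∙ e = l • e := by
    have h2 := h1 0 (B_zero_left e) 1
    rw [ac_zero, sg_zero, sg_zero] at h2
    exact parallel_of_tv_eq h2.symm he one_ne_zero
  have hl2 : l ^ 2 = 1 := by
    have h2 := h1 0 (B_zero_left e) 1
    rw [ac_zero, sg_zero, sg_zero, hl, tv_smul, mul_one] at h2
    exact tv_inj_right he h2
  obtain ⟨f, hf⟩ := exists_B_eq_one he
  set s' := scl l hl2 * s with hs'
  have hs'e : s' ∙ e = e := by
    rw [hs', ac_mul, ac_scl, hl, smul_smul, ← sq, hl2, one_smul]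
  have hsy : ∀ y, B y e = 0 → B (s ∙ y) e = 0 := by
    intro y hy
    have h3 := B_ac s y e
    rw [hl, B_smul_right, hy] at h3
    exact (mul_eq_zero.1 h3).resolve_left hl0
  have hs'y : ∀ y, B y e = 0 → ∃ c : F, s' ∙ y = y + c • e := by
    intro y hy
    have h2 := h1 y hy 0
    rw [hl, sg_smul_left (hsy y hy), mul_zero] at h2
    have h3 := congrArg (fun g => g ∙ f) h2
    simp only [ac_sg hy, ac_sg (show B (l • s ∙ y) e = 0 by rw [B_smul_left, hsy y hy, mul_zero]), hf,
      one_smul, zero_smul, add_zero] at h3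
    refine ⟨B f y - B f (l • s ∙ y), ?_⟩
    rw [hs', ac_mul, ac_scl, sub_smul]
    have h4 : l • s ∙ y + B f (l • s ∙ y) • e = y + B f y • e := by
      have := h3
      rw [add_assoc, add_assoc] at this
      exact add_left_cancel this
    rw [← sub_eq_zero] at h4 ⊢
    rw [← h4]
    abel
  obtain ⟨y₀, b₀, hy₀, hs0⟩ := exists_eq_sg he s' hs'e hs'y
  refine ⟨y₀, b₀, hy₀, ?_, ?_⟩
  · rw [← hs0, hs', pm_mul, pm_scl, one_mul]
  · intro y hy
    have h2 : s' * sg e y 0 * s'⁻¹ = sg e y 0 := by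
      rw [sg_conj, hs', ac_mul, ac_mul, ac_scl, ac_scl, hl, smul_smul, ← sq, hl2, one_smul]
      have h3 := h1 y hy 0
      rw [hl, sg_smul_left (hsy y hy), mul_zero] at h3
      exact h3
    have h3 : s' * sg e y 0 = sg e y 0 * s' := mul_inv_eq_iff_eq_mul.1 h2
    rw [hs0, sg_mul hy₀ hy, sg_mul hy hy₀, add_comm y₀ y] at h3
    have h4 := sg_inj_right he (by rw [B_add_left, hy, hy₀, add_zero]) h3
    rw [B_swap y₀ y] at h4
    linear_combination h4

end Cfsg.Agent.Lib.Helper18.AutPSp
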