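import Mathlib
import Cfsg.Agent.Lib.Helper18.AutPSp.Central

set_option autoImplicit false

/-!
Automorphisms of `PSp_{2m}(F)` preserve transvections.
-/

namespace Cfsg.Agent.Lib.Helper18.AutPSp

open Matrix Cfsg.Agent.Lib.Helper17

variable {F : Type*} [Field F] {m : ℕ}

/-- images of transvections -/
def IsTv (t : Cfsg.PSp m F) : Prop := ∃ (v : V m F) (a : F), t = pm (tv v a)

/-- central elements of Sylow `p`-subgroups -/
def IsSylCentral (p : ℕ) [Fact p.Prime] (z : Cfsg.PSp m F) : Prop :=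
  z ≠ 1 ∧ ∃ P : Sylow p (Cfsg.PSp m F), z ∈ P ∧ ∀ y ∈ P, y * z = z * y

/-- no product with a conjugate has order `4` -/
def NoFour (z : Cfsg.PSp m F) : Prop :=
  ∀ g : Cfsg.PSp m F, (z * (g * z * g⁻¹)) ^ 4 = 1 → z * (g * z * g⁻¹) = (g * z * g⁻¹) * z

/-- the group theoretic characterisation of transvections -/
def IsT (p : ℕ) [Fact p.Prime] (z : Cfsg.PSp m F) : Prop := IsSylCentral p z ∧ (p = 2 → NoFour z)

theorem IsSylCentral.map [Finite F] {p : ℕ} [Fact p.Prime] {z : Cfsg.PSp m F} (h : IsSylCentral p z)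
    (β : MulAut (Cfsg.PSp m F)) : IsSylCentral p (β z) := by
  obtain ⟨h1, P, hz, hc⟩ := h
  refine ⟨fun h0 => h1 (β.injective (by rw [h0, map_one])), ?_⟩
  have hβ : Function.Surjective β.toMonoidHom := β.surjective
  refine ⟨P.mapSurjective hβ, ⟨z, hz, rfl⟩, ?_⟩
  rintro _ ⟨y, hy, rfl⟩
  show β y * β z = β z * β y
  rw [← map_mul, ← map_mul, hc y hy]

theorem NoFour.map {z : Cfsg.PSp m F} (h : NoFour z) (β : MulAut (Cfsg.PSp m F)) :
    NoFour (β z) := by
  intro g hg
  obtain ⟨g, rfl⟩ := β.surjective g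
  have h1 : (z * (g * z * g⁻¹)) ^ 4 = 1 := by
    apply β.injective
    rw [map_pow, map_mul, map_mul, map_mul, map_inv, hg, map_one]
  have h2 := congrArg β (h g h1)
  simpa only [map_mul, map_inv] using h2

theorem IsT.map [Finite F] {p : ℕ} [Fact p.Prime] {z : Cfsg.PSp m F} (h : IsT p z)
    (β : MulAut (Cfsg.PSp m F)) : IsT p (β z) :=
  ⟨h.1.map β, fun hp => (h.2 hp).map β⟩

theorem mem_sylow_of_commute {G : Type*} [Group G] {p : ℕ} [Fact p.Prime] (P : Sylow p G) {t : G}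
    (ht : t ^ p = 1) (hc : ∀ y ∈ P, y * t = t * y) : t ∈ P := by
  have h1 : IsPGroup p (Subgroup.zpowers t) := by
    rintro ⟨_, k, rfl⟩
    refine ⟨1, Subtype.ext ?_⟩
    show (t ^ k) ^ (p ^ 1) = 1
    rw [pow_one, ← zpow_natCast, ← _root_.zpow_mul, mul_comm, _root_.zpow_mul, zpow_natCast, ht, _root_.one_zpow]
  have h2 : Subgroup.zpowers t ≤ Subgroup.normalizer ((P : Subgroup G) : Set G) := by
    rw [Subgroup.zpowers_le, Subgroup.mem_normalizer_iff]
    intro x
    constructor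
    · intro hx
      rw [← hc x hx, mul_inv_cancel_right]
      exact hx
    · intro hx
      have := hc _ hx
      have h3 : t * x * t⁻¹ = x := by
        have h4 : t * x * t⁻¹ * t = t * (t * x * t⁻¹) := this
        have h5 : t * x = t * (t * x * t⁻¹) := by simpa using h4
        exact (mul_left_cancel h5).symm
      rwa [h3] at hx
  have h3 := P.is_maximal' (h1.to_sup_of_normal_right' P.2 h2) le_sup_right
  have h4 : t ∈ Subgroup.zpowers t ⊔ (P : Subgroup G) :=
    (le_sup_left : Subgroup.zpowers t ≤ _) (Subgroup.mem_zpowers t)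
  rw [h3] at h4
  exact h4

section Sylow

variable [Fintype F] (p : ℕ) [Fact p.Prime] [CharP F p]

/-- the action on vectors as a `MulAction` -/
@[reducible] def spAct : MulAction (Sp m F) (V m F) where
  smul g x := g ∙ x
  one_smul := ac_one
  mul_smul := ac_mul

theorem exists_fixed_vector (hm : 1 ≤ m) (P : Sylow p (Sp m F)) :
    ∃ v : V m F, v ≠ 0 ∧ ∀ s ∈ P, s ∙ v = v := by
  let _ := spAct (F := F) (m := m)
  have hdvd : p ∣ Nat.card (V m F) := by
    obtain ⟨n, -, hn⟩ := FiniteField.card F p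
    rw [Nat.card_eq_fintype_card, Fintype.card_fun, hn]
    apply dvd_pow (dvd_pow_self p n.ne_zero)
    rw [Fintype.card_sum, Fintype.card_fin]
    omega
  have h0 : (0 : V m F) ∈ MulAction.fixedPoints P (V m F) := by
    intro g
    exact ac_zero g.1
  obtain ⟨v, hv, hv0⟩ := P.2.exists_fixed_point_of_prime_dvd_card_of_fixed_point (V m F) hdvd h0
  exact ⟨v, hv0.symm, fun s hs => hv ⟨s, hs⟩⟩

theorem isSylCentral_tv (hm : 1 ≤ m) {v : V m F} {a : F} (hv : v ≠ 0) (ha : a ≠ 0) :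
    IsSylCentral p (pm (tv v a)) := by
  obtain ⟨P⟩ : Nonempty (Sylow p (Sp m F)) := inferInstance
  obtain ⟨w, hw0, hw⟩ := exists_fixed_vector p hm P
  have hsurj : Function.Surjective (QuotientGroup.mk' (Subgroup.center (Sp m F))) :=
    QuotientGroup.mk'_surjective _
  have key : IsSylCentral p (pm (tv w a)) := by
    refine ⟨fun h => ?_, P.mapSurjective hsurj, ?_⟩
    · rcases (pm_tv_eq_one_iff p hm).1 h with h | h
      · exact hw0 h
      · exact ha h
    · have hc : ∀ y ∈ P.mapSurjective hsurj, y * pm (tv w a) = pm (tv w a) * y := by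
        rintro _ ⟨s, hs, rfl⟩
        show pm s * pm (tv w a) = pm (tv w a) * pm s
        rw [← pm_mul, ← pm_mul]
        congr 1
        have := tv_conj s w a
        rw [hw s hs] at this
        exact mul_inv_eq_iff_eq_mul.1 this
      refine ⟨mem_sylow_of_commute _ ?_ hc, hc⟩
      rw [← pm_pow, tv_pow_char p]
      rfl
  obtain ⟨g, hg⟩ := exists_ac_eq hw0 hv
  have := key.map (MulAut.conj (pm g))
  rw [MulAut.conj_apply, ← pm_inv, ← pm_mul, ← pm_mul, tv_conj, hg] at this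
  exact this

theorem exists_sylow_ge {i j : Fin m} (hij : i ≠ j) :
    ∃ P : Sylow p (Cfsg.PSp m F), Q (eb i : V m F) ≤ P ∧
      Qs (eb j : V m F) (perp (eb i) ⊓ perp (eb j)) inf_le_right ≤ P := by
  have hN : Qs (eb j : V m F) (perp (eb i) ⊓ perp (eb j)) inf_le_right ≤
      Subgroup.normalizer (Q (eb i : V m F) : Set (Cfsg.PSp m F)) := by
    rintro _ ⟨y, hy, b, rfl⟩
    apply pm_mem_normalizer_Q
    rw [ac_sg hy.2, B_eb_eb, zero_smul, add_zero, B_eq_zero_comm.1 hy.1, zero_smul, add_zero]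
  have hR := IsPGroup.to_sup_of_normal_right' (isPGroup_Qs p _ _ _) (isPGroup_Qs p _ _ _) hN
  obtain ⟨P, hP⟩ := hR.exists_le_sylow
  exact ⟨P, le_trans le_sup_right hP, le_trans le_sup_left hP⟩

end Sylow

/-! ### characteristic two -/

theorem tv_commute_of_perp {v w : V m F} (h : B v w = 0) (a b : F) :
    tv v a * tv w b = tv w b * tv v a := by
  have h1 := tv_conj (tv v a) w b
  rw [ac_tv, B_eq_zero_comm.1 h, mul_zero, zero_smul, add_zero] at h1
  exact mul_inv_eq_iff_eq_mul.1 h1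

theorem pm_injective_two [CharP F 2] : Function.Injective (pm : Sp m F → _) := by
  intro x y h
  obtain ⟨ε, h1, h2⟩ := exists_eps_of_pm_eq h
  have h3 : (ε - 1) ^ 2 = 0 := by
    have : (2 : F) = 0 := CharTwo.two_eq_zero
    linear_combination h1 + (1 - ε) * this
  have h4 : ε = 1 := sub_eq_zero.1 (pow_eq_zero_iff (two_ne_zero) |>.1 h3)
  apply sp_ext
  intro v
  rw [h2, h4, one_smul]

theorem noFour_tv [CharP F 2] (v : V m F) (a : F) : NoFour (pm (tv v a)) := by
  intro g hg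
  obtain ⟨s, rfl⟩ := pm_surjective g
  rw [← pm_inv, ← pm_mul, ← pm_mul, tv_conj] at hg ⊢
  set w := s ∙ v with hw
  rw [← pm_mul, ← pm_pow] at hg
  have h4 : (tv v a * tv w a) ^ 4 = 1 := pm_injective_two hg
  rw [← pm_mul, ← pm_mul]
  congr 1
  by_cases hδ : B v w = 0
  · exact tv_commute_of_perp hδ a a
  by_cases ha : a = 0
  · rw [ha, tv_zero, tv_zero]
  exfalso
  have h2 : (2 : F) = 0 := CharTwo.two_eq_zero
  set t := tv v a with ht
  set t' := tv w a with ht'
  have htt : t * t = 1 := by rw [← sq, ht, tv_pow_char 2]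
  have htt' : t' * t' = 1 := by rw [← sq, ht', tv_pow_char 2]
  set r := t * t' * (t * t') with hr
  have hrr : r * r = 1 := by
    rw [hr, ← sq, ← sq, ← pow_mul]
    exact h4
  have hrinv : r = t' * t * (t' * t) := by
    have h5 : r * (t' * t * (t' * t)) = 1 := by
      rw [hr]
      calc t * t' * (t * t') * (t' * t * (t' * t))
          = t * t' * (t * (t' * t') * t) * (t' * t) := by group
        _ = t * (t' * (t * t) * t') * t := by rw [htt', mul_one]; group
        _ = 1 := by rw [htt, mul_one, htt', mul_one, htt]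
    exact (mul_left_cancel (hrr.trans h5.symm))
  have hcomm : r * t * r⁻¹ = t := by
    rw [mul_inv_eq_iff_eq_mul]
    calc r * t = t' * t * (t' * t) * t := by rw [hrinv]
      _ = t' * t * t' * (t * t) := by group
      _ = (t * t) * t' * t * t' := by rw [htt, mul_one, one_mul]
      _ = t * r := by rw [hr]; group
  rw [ht, tv_conj] at hcomm
  have hv : v ≠ 0 := by
    rintro rfl
    exact hδ (B_zero_left w)
  obtain ⟨l, -, hl⟩ := parallel_of_tv_eq hcomm.symm hv ha
  have e1 : t' ∙ v = v + (a * B v w) • w := by rw [ht', ac_tv]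
  have e2 : t ∙ w = w - (a * B v w) • v := by rw [ht, ac_tv, B_swap w v]; module
  have e3 : t ∙ v = v := by rw [ht, ac_tv, B_self, mul_zero, zero_smul, add_zero]
  have e4 : t' ∙ w = w := by rw [ht', ac_tv, B_self, mul_zero, zero_smul, add_zero]
  have e5 : B (r ∙ v) v = 0 := by rw [hl, B_smul_left, B_self, mul_zero]
  rw [hr] at e5
  simp only [ac_mul, e1, e2, e3, e4, ac_add, ac_sub, ac_smul, B_add_left, B_sub_left, B_smul_left,
    B_self, B_swap w v] at e5
  have e6 : a ^ 3 * B v w ^ 4 = 0 := by linear_combination e5 + a * B v w ^ 2 * h2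
  exact (mul_ne_zero (pow_ne_zero 3 ha) (pow_ne_zero 4 hδ)) e6

theorem sg_eq_imp {e y y' : V m F} {b : F} (he : e ≠ 0) (h : B y e = 0) (h' : B y' e = 0)
    (H : sg e y' b = sg e y b) : ∃ c : F, y' = y + c • e := by
  obtain ⟨f, hf⟩ := exists_B_eq_one he
  have h1 := congrArg (fun g => g ∙ f) H
  simp only [ac_sg h, ac_sg h', hf, one_smul] at h1
  refine ⟨B f y - B f y', ?_⟩
  rw [← sub_eq_zero] at h1 ⊢
  rw [← h1]
  module

theorem not_noFour_sg [CharP F 2] {i j k : Fin m} (hij : i ≠ j) (hik : i ≠ k) (hjk : j ≠ k) {c : F}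
    (hc : c ≠ 0) (b : F) : ¬ NoFour (pm (sg (eb i : V m F) (c • eb j) b)) := by
  intro hN
  obtain ⟨A, hA⟩ := sp_witt_frame m ![(eb i : V m F), eb j] ![(eb k : V m F), fb j] (by
      rw [LinearIndependent.pair_iff]
      intro s t hst
      have h1 := congrArg (fun z => B (fb i) z) hst
      have h2 := congrArg (fun z => B (fb j) z) hst
      simp only [B_add_right, B_smul_right, B_fb_eb, B_fb_eb_ne hij, B_fb_eb_ne hij.symm,
        B_zero_right, mul_zero, mul_one, add_zero, zero_add] at h1 h2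
      exact ⟨h1, h2⟩) (by
      rw [LinearIndependent.pair_iff]
      intro s t hst
      have h1 := congrArg (fun z => B (fb k) z) hst
      have h2 := congrArg (fun z => B (eb j) z) hst
      simp only [B_add_right, B_smul_right, B_fb_eb, B_fb_fb, B_eb_eb, B_eb_fb,
        B_zero_right, mul_zero, mul_one, add_zero, zero_add, mul_neg, neg_eq_zero] at h1 h2
      exact ⟨h1, h2⟩) (by
      intro a b
      fin_cases a <;> fin_cases b
      · show B (eb k : V m F) (eb k) = B (eb i : V m F) (eb i)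
        rw [B_self, B_self]
      · show B (eb k : V m F) (fb j) = B (eb i : V m F) (eb j)
        rw [B_eb_fb_ne hjk.symm, B_eb_eb]
      · show B (fb j : V m F) (eb k) = B (eb j : V m F) (eb i)
        rw [B_fb_eb_ne hjk, B_eb_eb]
      · show B (fb j : V m F) (fb j) = B (eb j : V m F) (eb j)
        rw [B_self, B_self])
  have hA0 : A ∙ (eb i : V m F) = eb k := hA 0
  have hA1 : A ∙ (eb j : V m F) = fb j := hA 1
  have hy : B (c • eb j : V m F) (eb i) = 0 := by rw [B_smul_left, B_eb_eb, mul_zero]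
  have hy' : B (c • fb j : V m F) (eb k) = 0 := by rw [B_smul_left, B_fb_eb_ne hjk, mul_zero]
  set s := sg (eb i : V m F) (c • eb j) b with hs
  set s' := sg (eb k : V m F) (c • fb j) b with hs'
  have hconj : A * s * A⁻¹ = s' := by rw [hs, sg_conj, hA0, ac_smul, hA1]
  have h1 := hN (pm A)
  rw [← pm_inv, ← pm_mul, ← pm_mul, hconj, ← pm_mul, ← pm_mul, ← pm_pow] at h1
  have hs'2 : s' * s' = 1 := by rw [← sq, hs', sg_pow_char 2 hy']
  have hs'e : s' ∙ (eb i : V m F) = eb i := by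
    rw [hs', ac_sg hy', B_eb_eb, zero_smul, add_zero, B_smul_right, B_eb_fb_ne hij, mul_zero,
      zero_smul, add_zero]
  have e1 : s' * s * s'⁻¹ = sg (eb i) (s' ∙ (c • eb j)) b := by
    rw [hs, sg_conj, hs'e]
  have hy2 : B (s' ∙ (c • eb j : V m F)) (eb i) = 0 := by rw [B_ac_fix hs'e, hy]
  have e2 : (s * s') ^ 2 = s * (s' * s * s'⁻¹) := by
    have : s'⁻¹ = s' := inv_eq_of_mul_eq_one_left hs'2
    rw [this, sq]
    group
  have e3 : (s * s') ^ 4 = 1 := by
    rw [show 4 = 2 * 2 from rfl, pow_mul, e2, e1, hs, sg_mul hy hy2,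
      sg_pow_char 2 (by rw [B_add_left, hy, hy2, add_zero])]
  have h2 := pm_injective_two (h1 (by rw [e3]; rfl))
  have h3 := congrArg (fun g => g ∙ (fb k : V m F)) h2
  simp only [ac_mul, hs, hs', ac_sg hy, ac_sg hy', B_add_left, B_smul_left, B_smul_right, B_fb_eb,
    B_fb_fb, B_eb_eb, B_fb_eb_ne hik.symm, B_fb_eb_ne hjk.symm, B_fb_eb_ne hij.symm, B_fb_eb_ne hjk,
    B_eb_fb_ne hjk.symm, B_eb_fb_ne hik, B_eb_fb_ne hij] at h3
  have h4 : (c * c) • (eb i : V m F) = 0 := by
    rw [← sub_eq_zero] at h3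
    rw [← h3]
    module
  rcases smul_eq_zero.1 h4 with h5 | h5
  · exact hc (mul_self_eq_zero.1 h5)
  · exact eb_ne_zero i h5

theorem IsTv.conj {t : Cfsg.PSp m F} (h : IsTv t) (g : Cfsg.PSp m F) : IsTv (g * t * g⁻¹) := by
  obtain ⟨v, a, rfl⟩ := h
  obtain ⟨g, rfl⟩ := pm_surjective g
  exact ⟨g ∙ v, a, by rw [← pm_inv, ← pm_mul, ← pm_mul, tv_conj]⟩

theorem two_ne_zero_of_ne (p : ℕ) [Fact p.Prime] [CharP F p] (hp : p ≠ 2) : (2 : F) ≠ 0 := by
  intro h
  have h1 : ((2 : ℕ) : F) = 0 := by exact_mod_cast h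
  rw [CharP.cast_eq_zero_iff F p] at h1
  exact hp ((Nat.prime_dvd_prime_iff_eq Fact.out Nat.prime_two).1 h1)

theorem IsT.isTv [Fintype F] (p : ℕ) [Fact p.Prime] [CharP F p] (hm : 2 ≤ m) (h4 : m = 2 → p ≠ 2)
    {z : Cfsg.PSp m F} (h : IsT p z) : IsTv z := by
  obtain ⟨⟨-, P, hz, hc⟩, hN⟩ := h
  have hm1 : 1 ≤ m := by omega
  set i : Fin m := ⟨0, by omega⟩ with hi
  set j : Fin m := ⟨1, by omega⟩ with hj
  have hij : i ≠ j := by
    intro h
    have := congrArg Fin.val h
    simp [hi, hj] at this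
  obtain ⟨P₀, hA, hB⟩ := exists_sylow_ge (F := F) p hij
  obtain ⟨g, hg⟩ := MulAction.exists_smul_eq (Cfsg.PSp m F) P₀ P
  have hmem : ∀ y, y ∈ P₀ → g * y * g⁻¹ ∈ P := by
    intro y hy
    rw [← hg]
    show g * y * g⁻¹ ∈ ((g • P₀ : Sylow p _) : Subgroup (Cfsg.PSp m F))
    rw [Sylow.coe_subgroup_smul]
    exact Subgroup.smul_mem_pointwise_smul y (MulAut.conj g) _ hy
  have hcomm : ∀ y ∈ P₀, y * (g⁻¹ * z * g) = (g⁻¹ * z * g) * y := by
    intro y hy
    have := hc _ (hmem y hy)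
    calc y * (g⁻¹ * z * g) = g⁻¹ * ((g * y * g⁻¹) * z) * g := by group
      _ = g⁻¹ * (z * (g * y * g⁻¹)) * g := by rw [this]
      _ = (g⁻¹ * z * g) * y := by group
  have hzz : z = g * (g⁻¹ * z * g) * g⁻¹ := by group
  rw [hzz]
  apply IsTv.conj
  have hN' : p = 2 → NoFour (g⁻¹ * z * g) := by
    intro hp
    have := (hN hp).map (MulAut.conj g⁻¹)
    rwa [MulAut.conj_apply, inv_inv] at this
  set z' := g⁻¹ * z * g with hz'
  obtain ⟨y₀, b₀, hy₀, hz0, h2⟩ := central_form p hm1 (eb_ne_zero i) z' (fun y hy => hcomm y (hA hy))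
  by_cases hp : p = 2
  · subst hp
    have hm3 : 3 ≤ m := by
      rcases Nat.lt_or_ge m 3 with h | h
      · exact absurd rfl (h4 (by omega))
      · exact h
    set k : Fin m := ⟨2, by omega⟩ with hk
    have hik : i ≠ k := by
      intro h
      have := congrArg Fin.val h
      simp [hi, hk] at this
    have hjk : j ≠ k := by
      intro h
      have := congrArg Fin.val h
      simp [hj, hk] at this
    have key : ∀ y', B y' (eb i) = 0 → B y' (eb j) = 0 → ∀ b' : F,
        ∃ c : F, B y₀ (eb j) • (y' + b' • eb j) + B y₀ y' • eb j = c • (eb i : V m F) := by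
      intro y' h1 h2 b'
      have h3 := hcomm _ (hB ⟨y', ⟨h1, h2⟩, b', rfl⟩)
      rw [hz0] at h3
      have h5 := conj_eq_of_pm_commute 2 hm1 (sg_pow_char 2 hy₀ b₀) h3.symm
      have h6 : sg (eb j) y' b' ∙ (eb i : V m F) = eb i := by
        rw [ac_sg h2, B_eb_eb, zero_smul, add_zero, B_eq_zero_comm.1 h1, zero_smul, add_zero]
      rw [sg_conj, h6] at h5
      obtain ⟨c, hc⟩ := sg_eq_imp (eb_ne_zero i) hy₀ (by rw [B_ac_fix h6, hy₀]) h5
      refine ⟨c, ?_⟩
      rw [ac_sg h2, add_assoc] at hc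
      exact add_left_cancel hc
    have h5 : B y₀ (eb j) = 0 := by
      obtain ⟨c, hc⟩ := key 0 (B_zero_left _) (B_zero_left _) 1
      have h6 := congrArg (fun x => B (fb j) x) hc
      simpa only [B_add_right, B_smul_right, B_fb_eb, B_zero_right, B_fb_eb_ne hij.symm, mul_zero,
        mul_one, add_zero, zero_add] using h6
    have h6 : ∀ y', B y' (eb i) = 0 → B y' (eb j) = 0 → B y' y₀ = 0 := by
      intro y' h1 h2
      obtain ⟨c, hc⟩ := key y' h1 h2 0
      have h6 := congrArg (fun x => B (fb j) x) hc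
      rw [B_eq_zero_comm]
      simpa only [h5, zero_smul, B_add_right, B_smul_right, B_fb_eb, B_zero_right,
        B_fb_eb_ne hij.symm, mul_zero, mul_one, add_zero, zero_add] using h6
    obtain ⟨c₁, c₂, hcc⟩ := mem_span_two_of_perp _ _ _ h6
    have h7 : B (c₂ • eb j : V m F) (eb i) = 0 := by rw [B_smul_left, B_eb_eb, mul_zero]
    rw [hcc, add_comm, sg_add_smul h7] at hz0
    by_cases hc2 : c₂ = 0
    · rw [hc2, zero_smul, sg_zero] at hz0
      exact ⟨_, _, hz0⟩
    · exfalso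
      have := hN' rfl
      rw [hz0] at this
      exact not_noFour_sg hij hik hjk hc2 _ this
  · have h20 := two_ne_zero_of_ne (F := F) p hp
    obtain ⟨c, hc⟩ := mem_span_one_of_perp (eb i) y₀
      (fun y hy => (mul_eq_zero.1 (h2 y hy)).resolve_left h20)
    have h7 := sg_add_smul (B_zero_left (eb i : V m F)) c b₀
    rw [zero_add, ← hc, sg_zero] at h7
    rw [h7] at hz0
    exact ⟨_, _, hz0⟩

theorem isT_iff [Fintype F] (p : ℕ) [Fact p.Prime] [CharP F p] (hm : 2 ≤ m) (h4 : m = 2 → p ≠ 2)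
    {z : Cfsg.PSp m F} : IsT p z ↔ z ≠ 1 ∧ IsTv z := by
  constructor
  · intro h
    exact ⟨h.1.1, h.isTv p hm h4⟩
  · rintro ⟨h1, v, a, rfl⟩
    have h2 : ¬ (v = 0 ∨ a = 0) := fun h => h1 ((pm_tv_eq_one_iff p (by omega)).2 h)
    push Not at h2
    refine ⟨isSylCentral_tv p (by omega) h2.1 h2.2, ?_⟩
    intro hp
    subst hp
    exact noFour_tv v a

/-- automorphisms preserve transvections -/
theorem aut_isTv [Fintype F] (p : ℕ) [Fact p.Prime] [CharP F p] (hm : 2 ≤ m) (h4 : m = 2 → p ≠ 2)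
    (β : MulAut (Cfsg.PSp m F)) {t : Cfsg.PSp m F} (h : IsTv t) : IsTv (β t) := by
  by_cases h1 : t = 1
  · rw [h1, map_one]
    exact ⟨0, 0, by rw [tv_zero]; rfl⟩
  · exact ((isT_iff p hm h4).1 (((isT_iff p hm h4).2 ⟨h1, h⟩).map β)).2

end Cfsg.Agent.Lib.Helper18.AutPSp
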