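import Mathlib
import Cfsg.Agent.Lib.Helper18.AutPSp.TvAut

set_option autoImplicit false

/-!
The action of an automorphism of `PSp_{2m}(F)` on the points of the projective space.
-/

namespace Cfsg.Agent.Lib.Helper18.AutPSp

open Matrix Cfsg.Agent.Lib.Helper17

variable {F : Type*} [Field F] {m : ℕ}

/-- parallel vectors -/
def Par (u v : V m F) : Prop := ∃ l : F, l ≠ 0 ∧ v = l • u

theorem Par.refl (u : V m F) : Par u u := ⟨1, one_ne_zero, (one_smul _ _).symm⟩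

theorem Par.symm {u v : V m F} (h : Par u v) : Par v u := by
  obtain ⟨l, hl, rfl⟩ := h
  exact ⟨l⁻¹, inv_ne_zero hl, by rw [smul_smul, inv_mul_cancel₀ hl, one_smul]⟩

theorem Par.trans {u v w : V m F} (h : Par u v) (h' : Par v w) : Par u w := by
  obtain ⟨l, hl, rfl⟩ := h
  obtain ⟨l', hl', rfl⟩ := h'
  exact ⟨l' * l, mul_ne_zero hl' hl, by rw [smul_smul]⟩

theorem Par.ne_zero {u v : V m F} (h : Par u v) (hu : u ≠ 0) : v ≠ 0 := by
  obtain ⟨l, hl, rfl⟩ := h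
  exact smul_ne_zero hl hu

theorem Par.ac {u v : V m F} (h : Par u v) (g : Sp m F) : Par (g ∙ u) (g ∙ v) := by
  obtain ⟨l, hl, rfl⟩ := h
  exact ⟨l, hl, ac_smul g l u⟩

theorem Par.B_right {u v : V m F} (h : Par u v) (z : V m F) : B z u = 0 ↔ B z v = 0 := by
  obtain ⟨l, hl, rfl⟩ := h
  rw [B_smul_right, mul_eq_zero, or_iff_right hl]

theorem Par.B_left {u v : V m F} (h : Par u v) (z : V m F) : B u z = 0 ↔ B v z = 0 := by
  obtain ⟨l, hl, rfl⟩ := h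
  rw [B_smul_left, mul_eq_zero, or_iff_right hl]

theorem Par.smul {u : V m F} {l : F} (hl : l ≠ 0) : Par u (l • u) := ⟨l, hl, rfl⟩

theorem par_of_perp_imp {u v : V m F} (hv : v ≠ 0) (h : ∀ z, B z u = 0 → B z v = 0) : Par u v := by
  obtain ⟨c, hc⟩ := mem_span_one_of_perp u v h
  refine ⟨c, ?_, hc⟩
  rintro rfl
  rw [zero_smul] at hc
  exact hv hc

theorem Par.exists_tv {u v : V m F} (h : Par u v) (a : F) : ∃ b : F, tv v a = tv u b := by
  obtain ⟨l, hl, rfl⟩ := h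
  exact ⟨_, tv_smul l u a⟩

section

theorem par_of_pm_tv_eq (p : ℕ) [Fact p.Prime] [CharP F p] (hm : 1 ≤ m) {v w : V m F} {a b : F} (h : pm (tv v a) = pm (tv w b))
    (hv : v ≠ 0) (ha : a ≠ 0) : Par v w :=
  parallel_of_tv_eq (eq_of_pm_eq p hm h (tv_pow_char p v a) (tv_pow_char p w b)) hv ha

theorem pm_tv_commute_iff (p : ℕ) [Fact p.Prime] [CharP F p] (hm : 1 ≤ m) {u v : V m F} {a b : F} (hv : v ≠ 0) (ha : a ≠ 0)
    (hb : b ≠ 0) : pm (tv u a) * pm (tv v b) = pm (tv v b) * pm (tv u a) ↔ B u v = 0 := by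
  constructor
  · intro h
    have h1 := conj_eq_of_pm_commute p hm (tv_pow_char p v b) h.symm
    rw [tv_conj] at h1
    obtain ⟨l, -, hl⟩ := parallel_of_tv_eq h1.symm hv hb
    have h2 := congrArg (fun z => B z v) hl
    simp only [ac_tv, B_add_left, B_smul_left, B_self, mul_zero, zero_add, B_swap v u] at h2
    have h3 : a * (B u v * B u v) = 0 := by linear_combination -h2
    exact mul_self_eq_zero.1 ((mul_eq_zero.1 h3).resolve_left ha)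
  · intro h
    rw [← pm_mul, ← pm_mul, tv_commute_of_perp h]

variable (p : ℕ) [Fact p.Prime] [CharP F p] [Fintype F]

theorem exists_tv_of_aut (hm : 2 ≤ m) (h4 : m = 2 → p ≠ 2) (β : MulAut (Cfsg.PSp m F)) {v : V m F}
    {a : F} (hv : v ≠ 0) (ha : a ≠ 0) :
    ∃ (w : V m F) (c : F), w ≠ 0 ∧ c ≠ 0 ∧ β (pm (tv v a)) = pm (tv w c) := by
  obtain ⟨w, c, h⟩ := aut_isTv p hm h4 β ⟨v, a, rfl⟩
  have h1 : ¬ (w = 0 ∨ c = 0) := by
    intro h2
    rw [(pm_tv_eq_one_iff p (by omega)).2 h2, ← map_one β] at h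
    rcases (pm_tv_eq_one_iff p (by omega)).1 (β.injective h) with h3 | h3
    · exact hv h3
    · exact ha h3
  push Not at h1
  exact ⟨w, c, h1.1, h1.2, h⟩

theorem exists_centre (hm : 2 ≤ m) (h4 : m = 2 → p ≠ 2) (β : MulAut (Cfsg.PSp m F)) {v : V m F}
    (hv : v ≠ 0) : ∃ v' : V m F, v' ≠ 0 ∧ ∀ a, ∃ a', β (pm (tv v a)) = pm (tv v' a') := by
  have hm1 : 1 ≤ m := by omega
  obtain ⟨v', a₁, hv', ha₁, h1⟩ := exists_tv_of_aut p hm h4 β hv one_ne_zero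
  refine ⟨v', hv', fun a => ?_⟩
  by_cases ha : a = 0
  · exact ⟨0, by rw [ha, tv_zero, tv_zero, pm_one, map_one]⟩
  obtain ⟨w, c, hw, hc, h2⟩ := exists_tv_of_aut p hm h4 β hv ha
  have hpar : Par v' w := by
    apply par_of_perp_imp hw
    intro z hz
    by_cases hz0 : z = 0
    · rw [hz0, B_zero_left]
    obtain ⟨z₀, c₀, hz₀, hc₀, h3⟩ := exists_tv_of_aut p hm h4 β⁻¹ hz0 one_ne_zero
    have h4' : β (pm (tv z₀ c₀)) = pm (tv z 1) := by
      rw [← h3]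
      exact MulAut.apply_inv_self _ β _
    have h5 := (pm_tv_commute_iff p hm1 (a := 1) hv' one_ne_zero ha₁).2 hz
    rw [← h4', ← h1, ← map_mul, ← map_mul] at h5
    have h6 := (pm_tv_commute_iff p hm1 hv hc₀ one_ne_zero).1 (β.injective h5)
    have h7 := congrArg β ((pm_tv_commute_iff p hm1 hv hc₀ ha).2 h6)
    rw [map_mul, map_mul, h4', h2] at h7
    exact (pm_tv_commute_iff p hm1 hw one_ne_zero hc).1 h7
  obtain ⟨b, hb⟩ := hpar.exists_tv c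
  exact ⟨b, by rw [h2, hb]⟩

/-- the image of a point -/
noncomputable def pt (β : MulAut (Cfsg.PSp m F)) (v : V m F) : V m F :=
  Classical.epsilon fun v' : V m F => v' ≠ 0 ∧ ∀ a, ∃ a', β (pm (tv v a)) = pm (tv v' a')

theorem pt_ne_zero (hm : 2 ≤ m) (h4 : m = 2 → p ≠ 2) (β : MulAut (Cfsg.PSp m F)) {v : V m F}
    (hv : v ≠ 0) : pt β v ≠ 0 :=
  (Classical.epsilon_spec (exists_centre p hm h4 β hv)).1

theorem pt_spec (hm : 2 ≤ m) (h4 : m = 2 → p ≠ 2) (β : MulAut (Cfsg.PSp m F)) {v : V m F}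
    (hv : v ≠ 0) (a : F) : ∃ a', β (pm (tv v a)) = pm (tv (pt β v) a') :=
  (Classical.epsilon_spec (exists_centre p hm h4 β hv)).2 a

theorem pt_spec' (hm : 2 ≤ m) (h4 : m = 2 → p ≠ 2) (β : MulAut (Cfsg.PSp m F)) {v : V m F}
    (hv : v ≠ 0) {a : F} (ha : a ≠ 0) : ∃ a', a' ≠ 0 ∧ β (pm (tv v a)) = pm (tv (pt β v) a') := by
  obtain ⟨a', h⟩ := pt_spec p hm h4 β hv a
  refine ⟨a', ?_, h⟩
  rintro rfl
  rw [tv_zero, pm_one, ← map_one β] at h
  rcases (pm_tv_eq_one_iff p (by omega)).1 (β.injective h) with h3 | h3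
  · exact hv h3
  · exact ha h3

theorem pt_unique (hm : 2 ≤ m) (h4 : m = 2 → p ≠ 2) (β : MulAut (Cfsg.PSp m F)) {v w : V m F}
    {a c : F} (hv : v ≠ 0) (ha : a ≠ 0) (h : β (pm (tv v a)) = pm (tv w c)) : Par (pt β v) w := by
  obtain ⟨a', ha', h1⟩ := pt_spec' p hm h4 β hv ha
  exact par_of_pm_tv_eq p (by omega) (h1.symm.trans h) (pt_ne_zero p hm h4 β hv) ha'

theorem pt_perp_iff (hm : 2 ≤ m) (h4 : m = 2 → p ≠ 2) (β : MulAut (Cfsg.PSp m F)) {u v : V m F}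
    (hu : u ≠ 0) (hv : v ≠ 0) : B (pt β u) (pt β v) = 0 ↔ B u v = 0 := by
  obtain ⟨a, ha, h1⟩ := pt_spec' p hm h4 β hu one_ne_zero
  obtain ⟨b, hb, h2⟩ := pt_spec' p hm h4 β hv one_ne_zero
  rw [← pm_tv_commute_iff p (by omega) (pt_ne_zero p hm h4 β hv) ha hb,
    ← pm_tv_commute_iff p (by omega) hv one_ne_zero one_ne_zero, ← h1, ← h2, ← map_mul, ← map_mul]
  exact β.injective.eq_iff

theorem pt_equivariant (hm : 2 ≤ m) (h4 : m = 2 → p ≠ 2) (β : MulAut (Cfsg.PSp m F)) {v : V m F}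
    (hv : v ≠ 0) {g g' : Sp m F} (hg : β (pm g) = pm g') : Par (pt β (g ∙ v)) (g' ∙ pt β v) := by
  obtain ⟨a, ha, h1⟩ := pt_spec' p hm h4 β hv one_ne_zero
  apply pt_unique p hm h4 β (a := 1) (c := a) (fun h => hv ((ac_eq_zero_iff g).1 h)) one_ne_zero
  rw [← tv_conj, ← tv_conj, pm_mul, pm_mul, pm_mul, pm_mul, map_mul, map_mul, pm_inv, map_inv, hg, h1,
    pm_inv]

theorem pt_par (hm : 2 ≤ m) (h4 : m = 2 → p ≠ 2) (β : MulAut (Cfsg.PSp m F)) {u v : V m F}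
    (hu : u ≠ 0) (h : Par u v) : Par (pt β u) (pt β v) := by
  obtain ⟨b, hb⟩ := h.exists_tv 1
  obtain ⟨a', h1⟩ := pt_spec p hm h4 β hu b
  rw [← hb] at h1
  exact (pt_unique p hm h4 β (h.ne_zero hu) one_ne_zero h1).symm

theorem pt_surjective (hm : 2 ≤ m) (h4 : m = 2 → p ≠ 2) (β : MulAut (Cfsg.PSp m F)) {w : V m F}
    (hw : w ≠ 0) : ∃ v : V m F, v ≠ 0 ∧ Par (pt β v) w := by
  obtain ⟨a, ha, h1⟩ := pt_spec' p hm h4 β⁻¹ hw one_ne_zero
  refine ⟨pt β⁻¹ w, pt_ne_zero p hm h4 β⁻¹ hw, ?_⟩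
  apply pt_unique p hm h4 β (pt_ne_zero p hm h4 β⁻¹ hw) ha (c := 1)
  rw [← h1]
  exact MulAut.apply_inv_self _ β _

end

end Cfsg.Agent.Lib.Helper18.AutPSp
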