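import Mathlib
import Cfsg.Agent.Lib.Helper18.AutPSp.Points

set_option autoImplicit false

/-!
An automorphism fixing the point `e` normalises the unipotent radical `Q e`.
-/

namespace Cfsg.Agent.Lib.Helper18.AutPSp

open Matrix Cfsg.Agent.Lib.Helper17

variable {F : Type*} [Field F] {m : ℕ}

/-- `g` maps every point `u ⊥ e` into the line `⟨e, u⟩` -/
def KP (e : V m F) (g : Sp m F) : Prop :=
  ∀ u, B u e = 0 → ∀ z, B z e = 0 → B z u = 0 → B z (g ∙ u) = 0

theorem KP_sg {e y : V m F} (h : B y e = 0) (b : F) : KP e (sg e y b) := by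
  intro u hu z hz hzu
  rw [ac_sg h, hu, zero_smul, add_zero, B_add_right, B_smul_right, hzu, hz, mul_zero, add_zero]

/-- the projection onto `⟨e_i, f_i⟩^⊥` -/
def PW (i : Fin m) : V m F →ₗ[F] V m F where
  toFun x := x + B x (fb i) • eb i - B x (eb i) • fb i
  map_add' x y := by simp only [B_add_left]; module
  map_smul' a x := by simp only [B_smul_left, RingHom.id_apply]; module

theorem PW_apply (i : Fin m) (x : V m F) : PW i x = x + B x (fb i) • eb i - B x (eb i) • fb i := rfl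

theorem B_PW_eb (i : Fin m) (x : V m F) : B (PW i x) (eb i) = 0 := by
  rw [PW_apply, B_sub_left, B_add_left, B_smul_left, B_smul_left, B_eb_eb, B_fb_eb]; ring

theorem B_PW_fb (i : Fin m) (x : V m F) : B (PW i x) (fb i) = 0 := by
  rw [PW_apply, B_sub_left, B_add_left, B_smul_left, B_smul_left, B_eb_fb, B_fb_fb]; ring

theorem PW_of_mem {i : Fin m} {x : V m F} (h1 : B x (eb i) = 0) (h2 : B x (fb i) = 0) :
    PW i x = x := by
  rw [PW_apply, h1, h2]; module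

theorem PW_eb (i : Fin m) : PW i (eb i : V m F) = 0 := by
  rw [PW_apply, B_eb_fb, B_eb_eb]; module

theorem PW_fb (i : Fin m) : PW i (fb i : V m F) = 0 := by
  rw [PW_apply, B_fb_fb, B_fb_eb]; module

theorem eq_PW_add (i : Fin m) (x : V m F) :
    x = PW i x - B x (fb i) • eb i + B x (eb i) • fb i := by
  rw [PW_apply]; module

/-- `⟨e_i, f_i⟩^⊥` -/
abbrev WW (i : Fin m) : Submodule F (V m F) := perp (eb i) ⊓ perp (fb i)

theorem mem_WW {i : Fin m} {x : V m F} : x ∈ WW i ↔ B x (eb i) = 0 ∧ B x (fb i) = 0 := Iff.rfl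

theorem PW_mem (i : Fin m) (x : V m F) : PW i x ∈ WW i := ⟨B_PW_eb i x, B_PW_fb i x⟩

theorem eb_mem_WW {i j : Fin m} (hij : i ≠ j) : (eb j : V m F) ∈ WW i :=
  ⟨B_eb_eb j i, B_eb_fb_ne hij.symm⟩

theorem fb_mem_WW {i j : Fin m} (hij : i ≠ j) : (fb j : V m F) ∈ WW i :=
  ⟨B_fb_eb_ne hij.symm, B_fb_fb j i⟩

/-- an element which is a scalar on `W` modulo `e` has scalar `±1` -/
theorem sq_eq_one_of_scalar {i j : Fin m} (hij : i ≠ j) {g : Sp m F} {l : F}
    (h : ∀ w ∈ WW i, ∃ c : F, g ∙ w = l • w + c • eb i) : l ^ 2 = 1 := by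
  obtain ⟨c, hc⟩ := h _ (eb_mem_WW (F := F) hij)
  obtain ⟨d, hd⟩ := h _ (fb_mem_WW (F := F) hij)
  have h1 := B_ac g (fb j) (eb j)
  rw [hc, hd] at h1
  simp only [B_add_left, B_add_right, B_smul_left, B_smul_right, B_fb_eb, B_eb_eb,
    B_fb_eb_ne hij.symm] at h1
  linear_combination h1

theorem KP.form (p : ℕ) [Fact p.Prime] [CharP F p] {i j : Fin m} (hij : i ≠ j) {g : Sp m F}
    (h : KP (eb i) g) (hp : pm g ^ p = 1) :
    ∃ (y : V m F) (b : F), B y (eb i) = 0 ∧ pm g = pm (sg (eb i) y b) := by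
  have h1 : ∀ u, B u (eb i) = 0 → ∃ c d : F, g ∙ u = c • eb i + d • u := by
    intro u hu
    exact mem_span_two_of_perp _ _ _ (fun z hz hzu => h u hu z hz hzu)
  obtain ⟨μ, hμ⟩ : ∃ μ : F, g ∙ (eb i : V m F) = μ • eb i := by
    obtain ⟨c, d, hcd⟩ := h1 _ (B_eb_eb i i)
    exact ⟨c + d, by rw [hcd, add_smul]⟩
  obtain ⟨l, hl⟩ := exists_scalar_on (WW i) ((PW i).comp (acL g)) (by
    intro w hw
    obtain ⟨c, d, hcd⟩ := h1 w hw.1
    refine ⟨d, ?_⟩
    rw [LinearMap.comp_apply, acL_apply, hcd, map_add, map_smul, map_smul, PW_eb, smul_zero, zero_add,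
      PW_of_mem hw.1 hw.2])
  have h2 : ∀ w ∈ WW i, ∃ c : F, g ∙ w = l • w + c • eb i := by
    intro w hw
    obtain ⟨c, d, hcd⟩ := h1 w hw.1
    have h3 := hl w hw
    rw [LinearMap.comp_apply, acL_apply, hcd, map_add, map_smul, map_smul, PW_eb, smul_zero, zero_add,
      PW_of_mem hw.1 hw.2] at h3
    exact ⟨c, by rw [hcd, h3, add_comm]⟩
  have hl2 := sq_eq_one_of_scalar hij h2
  set g₁ := scl l hl2 * g with hg₁
  have hpm : pm g₁ = pm g := by rw [hg₁, pm_mul, pm_scl, one_mul]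
  have h3 : ∀ w ∈ WW i, ∃ c : F, g₁ ∙ w = w + c • eb i := by
    intro w hw
    obtain ⟨c, hc⟩ := h2 w hw
    refine ⟨l * c, ?_⟩
    rw [hg₁, ac_mul, ac_scl, hc, smul_add, smul_smul, smul_smul, ← sq, hl2, one_smul]
  have h4 : g₁ ∙ (eb i : V m F) = (l * μ) • eb i := by
    rw [hg₁, ac_mul, ac_scl, hμ, smul_smul]
  have h5 : ∀ k : ℕ, ∃ c : F, (g₁ ^ k) ∙ (eb j : V m F) = eb j + c • eb i := by
    intro k
    induction k with
    | zero => exact ⟨0, by rw [pow_zero, ac_one, zero_smul, add_zero]⟩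
    | succ k ih =>
      obtain ⟨c, hc⟩ := ih
      obtain ⟨d, hd⟩ := h3 _ (eb_mem_WW (F := F) hij)
      refine ⟨d + c * (l * μ), ?_⟩
      rw [pow_succ', ac_mul, hc, ac_add, ac_smul, hd, h4]
      module
  have h6 : g₁ ^ p ∈ Subgroup.center (Sp m F) := by
    rw [← QuotientGroup.eq_one_iff]
    show pm (g₁ ^ p) = 1
    rw [pm_pow, hpm, hp]
  obtain ⟨ε, -, hε⟩ := exists_eps_of_mem_center h6
  have hε1 : ε = 1 := by
    obtain ⟨c, hc⟩ := h5 p
    rw [hε] at hc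
    have h7 := congrArg (fun z => B (fb j) z) hc
    simpa only [B_add_right, B_smul_right, B_fb_eb, B_fb_eb_ne hij.symm, mul_one, mul_zero,
      add_zero] using h7
  have hμ1 : l * μ = 1 := by
    have h7 := ac_pow_of_eigen g₁ h4 p
    rw [hε, hε1, one_smul] at h7
    have h8 : ((l * μ) ^ p - 1) • (eb i : V m F) = 0 := by rw [sub_smul, one_smul, ← h7, sub_self]
    have h9 : (l * μ) ^ p = 1 :=
      sub_eq_zero.1 ((smul_eq_zero.1 h8).resolve_right (eb_ne_zero i))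
    have h10 : (l * μ - 1) ^ p = 0 := by rw [sub_pow_char, h9, one_pow, sub_self]
    exact sub_eq_zero.1 (pow_eq_zero_iff (Fact.out : p.Prime).ne_zero |>.1 h10)
  rw [hμ1, one_smul] at h4
  obtain ⟨y, b, hy, hyb⟩ := exists_eq_sg (eb_ne_zero i) g₁ h4 (by
    intro y hy
    obtain ⟨c, hc⟩ := h3 _ (PW_mem i y)
    refine ⟨c, ?_⟩
    have h7 : y = PW i y - B y (fb i) • eb i := by
      conv_lhs => rw [eq_PW_add i y, hy, zero_smul, add_zero]
    conv_lhs => rw [h7]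
    rw [ac_sub, ac_smul, hc, h4]
    conv_rhs => rw [h7]
    module)
  exact ⟨y, b, hy, by rw [← hpm, hyb]⟩

section

variable (p : ℕ) [Fact p.Prime] [CharP F p] [Fintype F]

theorem perp_transfer (hm : 2 ≤ m) (h4 : m = 2 → p ≠ 2) (β : MulAut (Cfsg.PSp m F))
    {u v u' v' : V m F} (hu : u ≠ 0) (hv : v ≠ 0) (hu' : Par (pt β u) u') (hv' : Par (pt β v) v') :
    B u' v' = 0 ↔ B u v = 0 := by
  rw [← pt_perp_iff p hm h4 β hu hv, hu'.B_left, hv'.B_right]

theorem KP.aut (hm : 2 ≤ m) (h4 : m = 2 → p ≠ 2) (β : MulAut (Cfsg.PSp m F)) {e : V m F}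
    (he0 : e ≠ 0) (he : Par (pt β e) e) {g g' : Sp m F} (hg : β (pm g) = pm g') (h : KP e g) :
    KP e g' := by
  intro u' hu' z' hz' hzu'
  by_cases hu0 : u' = 0
  · rw [hu0, ac_zero, B_zero_right]
  by_cases hz0 : z' = 0
  · rw [hz0, B_zero_left]
  obtain ⟨u, hu, hpu⟩ := pt_surjective p hm h4 β hu0
  obtain ⟨z, hz, hpz⟩ := pt_surjective p hm h4 β hz0
  have h1 := (perp_transfer p hm h4 β hu he0 hpu he).1 hu'
  have h2 := (perp_transfer p hm h4 β hz he0 hpz he).1 hz'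
  have h3 := (perp_transfer p hm h4 β hz hu hpz hpu).1 hzu'
  have h5 := h u h1 z h2 h3
  have h6 : Par (pt β (g ∙ u)) (g' ∙ u') := (pt_equivariant p hm h4 β hu hg).trans (hpu.ac g')
  exact (perp_transfer p hm h4 β hz (fun h0 => hu ((ac_eq_zero_iff g).1 h0)) hpz h6).2 h5

/-- the image of a Siegel element -/
theorem exists_sg_of_aut (hm : 2 ≤ m) (h4 : m = 2 → p ≠ 2) (β : MulAut (Cfsg.PSp m F))
    {i j : Fin m} (hij : i ≠ j) (he : Par (pt β (eb i)) (eb i)) {y : V m F} (hy : B y (eb i) = 0)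
    (b : F) : ∃ (y' : V m F) (b' : F), y' ∈ WW i ∧ β (pm (sg (eb i) y b)) = pm (sg (eb i) y' b') := by
  obtain ⟨g', hg'⟩ := pm_surjective (β (pm (sg (eb i) y b)))
  have h1 := (KP_sg hy b).aut p hm h4 β (eb_ne_zero i) he hg'.symm
  obtain ⟨y', b', hy', h2⟩ := h1.form p hij (by
    rw [hg', ← map_pow, ← pm_pow, sg_pow_char p hy, pm_one, map_one])
  refine ⟨PW i y', b' + 2 * (- B y' (fb i)), PW_mem i y', ?_⟩
  rw [← hg', h2, ← sg_add_smul (B_PW_eb i y')]
  congr 2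
  conv_lhs => rw [eq_PW_add i y', hy', zero_smul, add_zero]
  module

end

end Cfsg.Agent.Lib.Helper18.AutPSp
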