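import Mathlib
import Cfsg.Agent.Lib.Helper18.AutPSp.Radical

set_option autoImplicit false
set_option linter.unusedSectionVars false
set_option linter.unusedVariables false

/-!
The additive map induced on `W = ⟨e, f⟩^⊥` by a normalised automorphism.
-/

namespace Cfsg.Agent.Lib.Helper18.AutPSp

open Matrix Cfsg.Agent.Lib.Helper17

variable {F : Type*} [Field F] {m : ℕ}

/-- the data of the action on `Q e` -/
structure TD (β : MulAut (Cfsg.PSp m F)) (i : Fin m) (θ : V m F → V m F) (ζ : V m F → F)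
    (α : F → F) : Prop where
  mem : ∀ y ∈ WW i, θ y ∈ WW i
  eq : ∀ y ∈ WW i, ∀ b, β (pm (sg (eb i) y b)) = pm (sg (eb i) (θ y) (ζ y + α b))
  tv : ∀ b, β (pm (tv (eb i) b)) = pm (tv (eb i) (α b))

theorem pm_sg_inj (p : ℕ) [Fact p.Prime] [CharP F p] (hm : 1 ≤ m) {i : Fin m} {y y' : V m F}
    {b b' : F} (hy : y ∈ WW i) (hy' : y' ∈ WW i)
    (h : pm (sg (eb i) y b) = pm (sg (eb i) y' b')) : y = y' ∧ b = b' :=
  sg_inj (B_fb_eb i) hy.1 hy'.1 hy.2 hy'.2
    (eq_of_pm_eq p hm h (sg_pow_char p hy.1 b) (sg_pow_char p hy'.1 b'))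

theorem sg_ac_fb {i : Fin m} {y : V m F} (hy : y ∈ WW i) (b : F) :
    sg (eb i) y b ∙ (fb i : V m F) = fb i + y + b • eb i := by
  rw [ac_sg hy.1, B_fb_eb, B_eq_zero_comm.1 hy.2]
  module

theorem B_opp {i : Fin m} {y y' : V m F} (hy : y ∈ WW i) (hy' : y' ∈ WW i) (b b' : F) :
    B (fb i + y + b • eb i) (fb i + y' + b' • eb i) = b' - b + B y y' := by
  have h1 : B y (eb i) = 0 := hy.1
  have h2 : B y (fb i) = 0 := hy.2
  simp only [B_add_left, B_add_right, B_smul_left, B_smul_right, B_fb_fb, B_eb_eb, B_fb_eb, B_eb_fb,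
    h1, h2, B_eq_zero_comm.1 hy'.1, B_eq_zero_comm.1 hy'.2]
  ring

theorem opp_ne_zero {i : Fin m} {y : V m F} (hy : y ∈ WW i) (b : F) :
    (fb i + y + b • eb i : V m F) ≠ 0 := by
  intro h
  have h1 := congrArg (fun z => B z (eb i)) h
  have h2 : B y (eb i) = 0 := hy.1
  simp only [B_add_left, B_smul_left, B_fb_eb, h2, B_eb_eb, B_zero_left] at h1
  simp at h1

section

variable (p : ℕ) [Fact p.Prime] [CharP F p] [Fintype F] (hm : 2 ≤ m) (h4 : m = 2 → p ≠ 2)
  (β : MulAut (Cfsg.PSp m F)) {i j : Fin m} (hij : i ≠ j) (he : Par (pt β (eb i)) (eb i))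
  (hf : Par (pt β (fb i)) (fb i))

include hm h4 hij he

theorem exists_TD : ∃ (θ : V m F → V m F) (ζ : V m F → F) (α : F → F), TD β i θ ζ α := by
  have h : ∀ y, y ∈ WW i → ∃ (y' : V m F) (b' : F), y' ∈ WW i ∧
      β (pm (sg (eb i) y 0)) = pm (sg (eb i) y' b') :=
    fun y hy => exists_sg_of_aut p hm h4 β hij he hy.1 0
  choose! θ ζ hθ using h
  have h' : ∀ b : F, ∃ a : F, β (pm (tv (eb i) b)) = pm (tv (eb i) a) := by
    intro b
    obtain ⟨a, ha⟩ := pt_spec p hm h4 β (eb_ne_zero i) b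
    obtain ⟨c, hc⟩ := he.symm.exists_tv a
    exact ⟨c, by rw [ha, hc]⟩
  choose α hα using h'
  refine ⟨θ, ζ, α, fun y hy => (hθ y hy).1, fun y hy b => ?_, hα⟩
  have h1 : sg (eb i) y b = sg (eb i) y 0 * tv (eb i) b := by
    rw [← sg_zero, sg_mul hy.1 (B_zero_left _), B_zero_left, add_zero, zero_add, add_zero]
  have h2 : sg (eb i) (θ y) (ζ y + α b) = sg (eb i) (θ y) (ζ y) * tv (eb i) (α b) := by
    rw [← sg_zero, sg_mul (hθ y hy).1.1 (B_zero_left _), B_zero_left, add_zero, add_zero]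
  rw [h1, h2, pm_mul, pm_mul, map_mul, (hθ y hy).2, hα]

variable {θ : V m F → V m F} {ζ : V m F → F} {α : F → F} (T : TD β i θ ζ α)

include T

theorem TD.alpha_add (a b : F) : α (a + b) = α a + α b := by
  have h1 := T.tv (a + b)
  rw [← tv_mul, pm_mul, map_mul, T.tv, T.tv, ← pm_mul, tv_mul] at h1
  exact (tv_inj_right (eb_ne_zero i)
    (eq_of_pm_eq p (by omega) h1 (tv_pow_char p _ _) (tv_pow_char p _ _))).symm

theorem TD.alpha_zero : α 0 = 0 := by
  have := T.alpha_add p hm h4 β hij he 0 0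
  rw [add_zero] at this
  exact left_eq_add.1 this

theorem TD.theta_zero : θ 0 = 0 ∧ ζ 0 = 0 := by
  have h1 := T.eq 0 (WW i).zero_mem 0
  rw [sg_zero_zero, pm_one, map_one, T.alpha_zero p hm h4 β hij he, add_zero,
    ← pm_one, ← sg_zero_zero (eb i)] at h1
  obtain ⟨h2, h3⟩ := pm_sg_inj p (by omega) (WW i).zero_mem (T.mem 0 (WW i).zero_mem) h1
  exact ⟨h2.symm, h3.symm⟩

theorem TD.theta_add {y y' : V m F} (hy : y ∈ WW i) (hy' : y' ∈ WW i) :
    θ (y + y') = θ y + θ y' := by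
  have h1 := T.eq (y + y') ((WW i).add_mem hy hy') (0 + 0 + B y' y)
  rw [← sg_mul hy.1 hy'.1, pm_mul, map_mul, T.eq y hy, T.eq y' hy', ← pm_mul,
    sg_mul (T.mem y hy).1 (T.mem y' hy').1] at h1
  exact (pm_sg_inj p (by omega) ((WW i).add_mem (T.mem y hy) (T.mem y' hy'))
    (T.mem _ ((WW i).add_mem hy hy')) h1).1.symm

include hf

theorem TD.pt_opp {y : V m F} (hy : y ∈ WW i) (b : F) :
    Par (pt β (fb i + y + b • eb i)) (fb i + θ y + (ζ y + α b) • eb i) := by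
  rw [← sg_ac_fb hy, ← sg_ac_fb (T.mem y hy)]
  exact (pt_equivariant p hm h4 β (fb_ne_zero i) (T.eq y hy b)).trans (hf.ac _)

theorem TD.perp_iff {y y' : V m F} (hy : y ∈ WW i) (hy' : y' ∈ WW i) (b b' : F) :
    (ζ y' + α b') - (ζ y + α b) + B (θ y) (θ y') = 0 ↔ b' - b + B y y' = 0 := by
  rw [← B_opp hy hy', ← B_opp (T.mem y hy) (T.mem y' hy')]
  exact perp_transfer p hm h4 β (opp_ne_zero hy b) (opp_ne_zero hy' b')
    (T.pt_opp p hm h4 β hij he hf hy b) (T.pt_opp p hm h4 β hij he hf hy' b')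

theorem TD.zeta_eq_zero {y : V m F} (hy : y ∈ WW i) : ζ y = 0 := by
  have h1 := (T.perp_iff p hm h4 β hij he hf hy (WW i).zero_mem 0 0).2
    (by rw [B_zero_right]; ring)
  rw [(T.theta_zero p hm h4 β hij he).1, (T.theta_zero p hm h4 β hij he).2,
    T.alpha_zero p hm h4 β hij he, B_zero_right] at h1
  linear_combination -h1

theorem TD.B_theta {y y' : V m F} (hy : y ∈ WW i) (hy' : y' ∈ WW i) :
    B (θ y) (θ y') = α (B y y') := by
  have h1 := (T.perp_iff p hm h4 β hij he hf hy hy' (B y y') 0).2 (by ring)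
  rw [T.zeta_eq_zero p hm h4 β hij he hf hy, T.zeta_eq_zero p hm h4 β hij he hf hy',
    T.alpha_zero p hm h4 β hij he] at h1
  linear_combination h1

theorem TD.theta_eq_zero {y : V m F} (hy : y ∈ WW i) (h : θ y = 0) : y = 0 := by
  have h1 := T.eq y hy 0
  rw [h, T.zeta_eq_zero p hm h4 β hij he hf hy, T.alpha_zero p hm h4 β hij he, add_zero, sg_zero_zero,
    pm_one, ← map_one β] at h1
  have h2 := β.injective h1
  rw [← pm_one, ← sg_zero_zero (eb i)] at h2
  exact (pm_sg_inj p (by omega) hy (WW i).zero_mem h2).1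

theorem TD.eq' {y : V m F} (hy : y ∈ WW i) (b : F) :
    β (pm (sg (eb i) y b)) = pm (sg (eb i) (θ y) (α b)) := by
  rw [T.eq y hy, T.zeta_eq_zero p hm h4 β hij he hf hy, zero_add]

theorem TD.pt_opp' {y : V m F} (hy : y ∈ WW i) (b : F) :
    Par (pt β (fb i + y + b • eb i)) (fb i + θ y + α b • eb i) := by
  have := T.pt_opp p hm h4 β hij he hf hy b
  rwa [T.zeta_eq_zero p hm h4 β hij he hf hy, zero_add] at this

end

end Cfsg.Agent.Lib.Helper18.AutPSp
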