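import Mathlib
import Cfsg.Agent.Lib.Helper18.AutPSp.Theta

set_option autoImplicit false
set_option linter.unusedSectionVars false
set_option linter.unusedVariables false

/-!
The torus and the field automorphism attached to a normalised automorphism.
-/

namespace Cfsg.Agent.Lib.Helper18.AutPSp

open Matrix Cfsg.Agent.Lib.Helper17

variable {F : Type*} [Field F] {m : ℕ}

/-- the linear map `e ↦ μ e`, `f ↦ μ⁻¹ f`, identity on `W` -/
def torL (i : Fin m) (μ : F) : V m F →ₗ[F] V m F where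
  toFun x := x - ((μ - 1) * B x (fb i)) • eb i + ((μ⁻¹ - 1) * B x (eb i)) • fb i
  map_add' x y := by simp only [B_add_left]; module
  map_smul' a x := by simp only [B_smul_left, RingHom.id_apply]; module

theorem torL_apply (i : Fin m) (μ : F) (x : V m F) :
    torL i μ x = x - ((μ - 1) * B x (fb i)) • eb i + ((μ⁻¹ - 1) * B x (eb i)) • fb i := rfl

/-- the torus element -/
noncomputable def tor (i : Fin m) (μ : F) (hμ : μ ≠ 0) : Sp m F :=
  mkSp (torL i μ) (fun u v => by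
    simp only [torL_apply, B_add_left, B_add_right, B_sub_left, B_sub_right, B_smul_left, B_smul_right,
      B_eb_eb, B_fb_fb, B_eb_fb, B_fb_eb, B_swap (eb i) v, B_swap (fb i) v]
    field_simp
    ring)

theorem ac_tor (i : Fin m) (μ : F) (hμ : μ ≠ 0) (x : V m F) :
    tor i μ hμ ∙ x = x - ((μ - 1) * B x (fb i)) • eb i + ((μ⁻¹ - 1) * B x (eb i)) • fb i := by
  rw [tor, ac_mkSp, torL_apply]

theorem ac_tor_eb (i : Fin m) (μ : F) (hμ : μ ≠ 0) : tor i μ hμ ∙ (eb i : V m F) = μ • eb i := by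
  rw [ac_tor, B_eb_fb, B_eb_eb]; module

theorem ac_tor_fb (i : Fin m) (μ : F) (hμ : μ ≠ 0) : tor i μ hμ ∙ (fb i : V m F) = μ⁻¹ • fb i := by
  rw [ac_tor, B_fb_fb, B_fb_eb]; module

theorem ac_tor_of_mem {i : Fin m} (μ : F) (hμ : μ ≠ 0) {w : V m F} (hw : w ∈ WW i) :
    tor i μ hμ ∙ w = w := by
  have h1 : B w (eb i) = 0 := hw.1
  have h2 : B w (fb i) = 0 := hw.2
  rw [ac_tor, h1, h2]; module

section

variable (p : ℕ) [Fact p.Prime] [CharP F p] [Fintype F] (hm : 2 ≤ m) (h4 : m = 2 → p ≠ 2)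
  (β : MulAut (Cfsg.PSp m F)) {i j : Fin m} (hij : i ≠ j) (he : Par (pt β (eb i)) (eb i))
  (hf : Par (pt β (fb i)) (fb i))
  {θ : V m F → V m F} {ζ : V m F → F} {α : F → F} (T : TD β i θ ζ α)

include hm h4 hij he hf T

theorem TD.exists_scalar {μ : F} (hμ : μ ≠ 0) :
    ∃ μ' : F, μ' ≠ 0 ∧ ∀ y ∈ WW i, θ (μ • y) = μ' • θ y := by
  obtain ⟨h', hh'⟩ := pm_surjective (β (pm (tor i μ hμ)))
  have h1 : Par (eb i) (h' ∙ (eb i : V m F)) := by
    have h2 := pt_equivariant p hm h4 β (eb_ne_zero i) hh'.symm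
    rw [ac_tor_eb] at h2
    exact he.symm.trans ((pt_par p hm h4 β (eb_ne_zero i) (Par.smul hμ)).trans (h2.trans (he.ac h')))
  have h3 : ∀ w ∈ WW i, ∃ c : F, acL h' w = c • w := by
    intro w' hw'
    by_cases hw0 : w' = 0
    · exact ⟨0, by rw [hw0, map_zero, smul_zero]⟩
    obtain ⟨w, hw, hpw⟩ := pt_surjective p hm h4 β hw0
    have hwW : w ∈ WW i :=
      ⟨(perp_transfer p hm h4 β hw (eb_ne_zero i) hpw he).1 hw'.1,
        (perp_transfer p hm h4 β hw (fb_ne_zero i) hpw hf).1 hw'.2⟩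
    have h2 := pt_equivariant p hm h4 β hw hh'.symm
    rw [ac_tor_of_mem μ hμ hwW] at h2
    obtain ⟨c, -, hc⟩ := hpw.symm.trans (h2.trans (hpw.ac h'))
    exact ⟨c, hc⟩
  obtain ⟨l, hl⟩ := exists_scalar_on (WW i) (acL h') h3
  have hl2 : l ^ 2 = 1 := sq_eq_one_of_scalar hij (g := h') (l := l) (fun w hw =>
    ⟨0, by rw [zero_smul, add_zero]; exact hl w hw⟩)
  obtain ⟨c, hc0, hc⟩ := h1
  set h₁ := scl l hl2 * h' with hh₁
  have hpm : pm h₁ = β (pm (tor i μ hμ)) := by rw [hh₁, pm_mul, pm_scl, one_mul, hh']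
  have h5 : ∀ w ∈ WW i, h₁ ∙ w = w := by
    intro w hw
    have := hl w hw
    rw [acL_apply] at this
    rw [hh₁, ac_mul, ac_scl, this, smul_smul, ← sq, hl2, one_smul]
  have h6 : h₁ ∙ (eb i : V m F) = (l * c) • eb i := by
    rw [hh₁, ac_mul, ac_scl, hc, smul_smul]
  have hl0 : l ≠ 0 := by
    rintro rfl
    simp at hl2
  refine ⟨l * c, mul_ne_zero hl0 hc0, fun y hy => ?_⟩
  have h7 : tor i μ hμ * sg (eb i) y 0 * (tor i μ hμ)⁻¹ = sg (eb i) (μ • y) 0 := by
    rw [sg_conj, ac_tor_eb, ac_tor_of_mem μ hμ hy, sg_smul_left hy.1, mul_zero]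
  have h8 := congrArg (fun g => β (pm g)) h7
  simp only [pm_mul, pm_inv, map_mul, map_inv] at h8
  rw [← hpm, T.eq' p hm h4 β hij he hf hy, T.eq' p hm h4 β hij he hf ((WW i).smul_mem μ hy), ← pm_inv,
    ← pm_mul, ← pm_mul, sg_conj, h6, h5 _ (T.mem y hy), sg_smul_left (T.mem y hy).1] at h8
  exact (pm_sg_inj p (by omega) ((WW i).smul_mem _ (T.mem y hy))
    (T.mem _ ((WW i).smul_mem μ hy)) h8).1.symm

theorem TD.exists_sigma : ∃ σ : F ≃+* F, ∀ (μ : F), ∀ y ∈ WW i, θ (μ • y) = σ μ • θ y := by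
  have H : ∀ μ : F, ∃ μ' : F, ∀ y ∈ WW i, θ (μ • y) = μ' • θ y := by
    intro μ
    by_cases hμ : μ = 0
    · exact ⟨0, fun y _ => by
        rw [hμ, zero_smul, zero_smul, (T.theta_zero p hm h4 β hij he).1]⟩
    · obtain ⟨μ', -, h⟩ := T.exists_scalar p hm h4 β hij he hf hμ
      exact ⟨μ', h⟩
  choose σ hσ using H
  have hy₀ : (eb j : V m F) ∈ WW i := eb_mem_WW hij
  have hθ0 : θ (eb j) ≠ 0 := fun h => eb_ne_zero j (T.theta_eq_zero p hm h4 β hij he hf hy₀ h)
  have huniq : ∀ {a b : F}, a • θ (eb j) = b • θ (eb j) → a = b := by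
    intro a b hab
    exact smul_left_injective F hθ0 hab
  let σ' : F →+* F :=
    { toFun := σ
      map_one' := by
        apply huniq
        rw [← hσ 1 _ hy₀, one_smul, one_smul]
      map_mul' := by
        intro a b
        apply huniq
        rw [← hσ _ _ hy₀, mul_smul, hσ a _ ((WW i).smul_mem b hy₀), hσ b _ hy₀, smul_smul]
      map_zero' := by
        apply huniq
        rw [← hσ 0 _ hy₀, zero_smul, zero_smul, (T.theta_zero p hm h4 β hij he).1]
      map_add' := by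
        intro a b
        apply huniq
        rw [← hσ _ _ hy₀, add_smul, T.theta_add p hm h4 β hij he ((WW i).smul_mem a hy₀)
          ((WW i).smul_mem b hy₀), hσ a _ hy₀, hσ b _ hy₀, add_smul] }
  exact ⟨RingEquiv.ofBijective σ' ⟨σ'.injective, Finite.surjective_of_injective σ'.injective⟩, hσ⟩

theorem TD.alpha_one_ne_zero : α 1 ≠ 0 := by
  intro h
  have h1 := T.tv 1
  rw [h, tv_zero, pm_one, ← map_one β] at h1
  rcases (pm_tv_eq_one_iff p (by omega)).1 (β.injective h1) with h2 | h2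
  · exact eb_ne_zero i h2
  · exact one_ne_zero h2

theorem TD.alpha_eq {σ : F ≃+* F} (hσ : ∀ (μ : F), ∀ y ∈ WW i, θ (μ • y) = σ μ • θ y) (c : F) :
    α c = α 1 * σ c := by
  have h1 := T.B_theta p hm h4 β hij he hf ((WW i).smul_mem c (fb_mem_WW (F := F) hij))
    (eb_mem_WW (F := F) hij)
  rw [hσ c _ (fb_mem_WW hij), B_smul_left, B_smul_left,
    T.B_theta p hm h4 β hij he hf (fb_mem_WW (F := F) hij) (eb_mem_WW (F := F) hij), B_fb_eb,
    mul_one] at h1
  rw [← h1, mul_comm]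

end

end Cfsg.Agent.Lib.Helper18.AutPSp
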