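import Mathlib
import Cfsg.Agent.Lib.Helper18.AutPSp.Torus

set_option autoImplicit false
set_option linter.unusedSectionVars false
set_option linter.unusedVariables false

/-!
Every automorphism of `PSp_{2m}(F)` is induced by a semilinear similitude.
-/

namespace Cfsg.Agent.Lib.Helper18.AutPSp

open Matrix Cfsg.Agent.Lib.Helper17

variable {F : Type*} [Field F] {m : ℕ}

/-- a semilinear map is given by a matrix -/
theorem semilinear_eq_mulVec {ι : Type*} [Fintype ι] [DecidableEq ι] (Θ : (ι → F) → (ι → F))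
    (σ : F ≃+* F) (hadd : ∀ x y, Θ (x + y) = Θ x + Θ y) (hsmul : ∀ (a : F) x, Θ (a • x) = σ a • Θ x)
    (x : ι → F) :
    Θ x = (Matrix.of fun r c => Θ (Pi.single c 1) r) *ᵥ (fun k => σ (x k)) := by
  have h1 : x = ∑ c, x c • (Pi.single c 1 : ι → F) := by
    conv_lhs => rw [pi_eq_sum_univ' x]
  have h2 : Θ (∑ c, x c • (Pi.single c 1 : ι → F)) = ∑ c, Θ (x c • (Pi.single c 1 : ι → F)) :=
    map_sum (AddMonoidHom.mk' Θ hadd) _ _
  conv_lhs => rw [h1, h2]
  funext r
  simp only [hsmul, Finset.sum_apply, Pi.smul_apply, smul_eq_mul, Matrix.mulVec, dotProduct,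
    Matrix.of_apply]
  exact Finset.sum_congr rfl fun c _ => mul_comm _ _

theorem B_map (σ : F ≃+* F) (x y : V m F) :
    σ (B x y) = B (fun k => σ (x k)) (fun k => σ (y k)) := by
  show σ (Cfsg.sympForm m F x y) = Cfsg.sympForm m F _ _
  rw [sympForm_eq_sum, sympForm_eq_sum, map_sum]
  simp only [map_sub, map_mul]

theorem B_eq_PW (i : Fin m) (x y : V m F) :
    B x y = B (PW i x) (PW i y) + B x (fb i) * B y (eb i) - B x (eb i) * B y (fb i) := by
  simp only [PW_apply, B_add_left, B_add_right, B_sub_left, B_sub_right, B_smul_left, B_smul_right,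
    B_eb_eb, B_fb_fb, B_eb_fb, B_fb_eb, B_swap (eb i) y, B_swap (fb i) y]
  ring

/-- a point is determined by the points opposite `e` perpendicular to it -/
theorem par_of_opp {e u u' : V m F} (he : e ≠ 0) (hu : u ≠ 0) (hu' : u' ≠ 0)
    (h : ∀ v, B v e ≠ 0 → (B v u = 0 ↔ B v u' = 0)) : Par u u' := by
  by_cases hA : ∃ v₂, B v₂ u = 0 ∧ B v₂ e ≠ 0
  · obtain ⟨v₂, h1, h2⟩ := hA
    apply par_of_perp_imp hu'
    intro z hz
    by_cases hze : B z e = 0
    · have h3 := (h v₂ h2).1 h1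
      have h5 := (h (z + v₂) (by rw [B_add_left, hze, zero_add]; exact h2)).1
        (by rw [B_add_left, hz, h1, add_zero])
      rw [B_add_left, h3, add_zero] at h5
      exact h5
    · exact (h z hze).1 hz
  · push Not at hA
    have h1 : Par u e := par_of_perp_imp he hA
    have h2 : Par u' e := by
      apply par_of_perp_imp he
      intro v hv
      by_contra hve
      exact hve (hA v ((h v hve).2 hv))
    exact h1.trans h2.symm

/-- the semilinear map -/
def Th (i : Fin m) (θ : V m F → V m F) (c₀ : F) (σ : F ≃+* F) (x : V m F) : V m F :=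
  (c₀ * σ (- B x (fb i))) • eb i + θ (PW i x) + σ (B x (eb i)) • fb i

section

variable (p : ℕ) [Fact p.Prime] [CharP F p] [Fintype F] (hm : 2 ≤ m) (h4 : m = 2 → p ≠ 2)
  (β : MulAut (Cfsg.PSp m F)) {i j : Fin m} (hij : i ≠ j) (he : Par (pt β (eb i)) (eb i))
  (hf : Par (pt β (fb i)) (fb i))
  {θ : V m F → V m F} {ζ : V m F → F} {α : F → F} (T : TD β i θ ζ α)
  {σ : F ≃+* F} (hσ : ∀ (μ : F), ∀ y ∈ WW i, θ (μ • y) = σ μ • θ y)

include hm h4 hij he hf T hσ

theorem TD.Th_add (x y : V m F) : Th i θ (α 1) σ (x + y) = Th i θ (α 1) σ x + Th i θ (α 1) σ y := by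
  simp only [Th, B_add_left, map_add, neg_add, T.theta_add p hm h4 β hij he (PW_mem i x) (PW_mem i y)]
  module

theorem TD.Th_smul (a : F) (x : V m F) : Th i θ (α 1) σ (a • x) = σ a • Th i θ (α 1) σ x := by
  simp only [Th, B_smul_left, map_smul, hσ a _ (PW_mem i x), map_mul, map_neg]
  module

theorem TD.B_Th (x y : V m F) :
    B (Th i θ (α 1) σ x) (Th i θ (α 1) σ y) = α 1 * σ (B x y) := by
  have h1 : B (θ (PW i x)) (eb i) = 0 := (T.mem _ (PW_mem i x)).1
  have h2 : B (θ (PW i x)) (fb i) = 0 := (T.mem _ (PW_mem i x)).2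
  have h3 : B (eb i) (θ (PW i y)) = 0 := B_eq_zero_comm.1 (T.mem _ (PW_mem i y)).1
  have h5 : B (fb i) (θ (PW i y)) = 0 := B_eq_zero_comm.1 (T.mem _ (PW_mem i y)).2
  simp only [Th, B_add_left, B_add_right, B_smul_left, B_smul_right, B_eb_eb, B_fb_fb, B_eb_fb,
    B_fb_eb, h1, h2, h3, h5, T.B_theta p hm h4 β hij he hf (PW_mem i x) (PW_mem i y)]
  rw [T.alpha_eq p hm h4 β hij he hf hσ (B (PW i x) (PW i y)), B_eq_PW i x y]
  simp only [map_add, map_sub, map_mul, map_neg]
  ring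

theorem TD.Th_ne_zero {x : V m F} (hx : x ≠ 0) : Th i θ (α 1) σ x ≠ 0 := by
  intro h
  apply hx
  apply eq_zero_of_B_left
  intro y
  have h1 := T.B_Th p hm h4 β hij he hf hσ x y
  rw [h, B_zero_left] at h1
  have h2 := (mul_eq_zero.1 h1.symm).resolve_left (T.alpha_one_ne_zero p hm h4 β hij he hf)
  exact (map_eq_zero σ).1 h2

theorem TD.Th_opp {y : V m F} (hy : y ∈ WW i) (b : F) :
    Th i θ (α 1) σ (fb i + y + b • eb i) = fb i + θ y + α b • eb i := by
  have h1 : B y (eb i) = 0 := hy.1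
  have h2 : B y (fb i) = 0 := hy.2
  rw [T.alpha_eq p hm h4 β hij he hf hσ b]
  simp only [Th, map_add, map_smul, PW_fb, PW_eb, PW_of_mem h1 h2, B_add_left, B_smul_left, B_fb_fb,
    B_fb_eb, B_eb_fb, B_eb_eb, h1, h2]
  simp only [smul_zero, add_zero, zero_add, mul_zero, mul_neg, mul_one, neg_neg, map_one, map_zero]
  module

theorem TD.pt_of_opp {x : V m F} (hx : B x (eb i) ≠ 0) : Par (pt β x) (Th i θ (α 1) σ x) := by
  set t := B x (eb i) with ht
  set y := t⁻¹ • PW i x with hy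
  set b := - (t⁻¹ * B x (fb i)) with hb
  have hyW : y ∈ WW i := (WW i).smul_mem _ (PW_mem i x)
  have hx' : x = t • (fb i + y + b • eb i) := by
    conv_lhs => rw [eq_PW_add i x]
    rw [hy, hb, ← ht, smul_add, smul_add, smul_smul, smul_smul, mul_inv_cancel₀ hx, one_smul, mul_neg,
      ← mul_assoc, mul_inv_cancel₀ hx, one_mul]
    module
  have h1 : Par (fb i + y + b • eb i) x := ⟨t, hx, hx'⟩
  have h2 := pt_par p hm h4 β (opp_ne_zero hyW b) h1
  have h3 := T.pt_opp' p hm h4 β hij he hf hyW b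
  rw [← T.Th_opp p hm h4 β hij he hf hσ hyW b] at h3
  refine h2.symm.trans (h3.trans ⟨σ t, (map_ne_zero σ).2 hx, ?_⟩)
  conv_lhs => rw [hx']
  exact T.Th_smul p hm h4 β hij he hf hσ _ _

theorem TD.pt_eq {x : V m F} (hx : x ≠ 0) : Par (pt β x) (Th i θ (α 1) σ x) := by
  apply par_of_opp (eb_ne_zero i) (pt_ne_zero p hm h4 β hx) (T.Th_ne_zero p hm h4 β hij he hf hσ hx)
  intro v' hv'
  have hv'0 : v' ≠ 0 := by
    rintro rfl
    exact hv' (B_zero_left _)
  obtain ⟨v, hv, hpv⟩ := pt_surjective p hm h4 β hv'0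
  have hve : B v (eb i) ≠ 0 := fun h =>
    hv' ((perp_transfer p hm h4 β hv (eb_ne_zero i) hpv he).2 h)
  have h1 : Par v' (Th i θ (α 1) σ v) := hpv.symm.trans (T.pt_of_opp p hm h4 β hij he hf hσ hve)
  rw [perp_transfer p hm h4 β hv hx hpv (Par.refl _), h1.B_left, T.B_Th p hm h4 β hij he hf hσ,
    mul_eq_zero, or_iff_right (T.alpha_one_ne_zero p hm h4 β hij he hf), map_eq_zero]

end

end Cfsg.Agent.Lib.Helper18.AutPSp
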