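import Mathlib
import Cfsg.Agent.Lib.Helper18.AutPSp.Main

set_option autoImplicit false
set_option linter.unusedSectionVars false
set_option linter.unusedVariables false

/-!
`Aut(PSp_{2m}(F)) = PΓSp_{2m}(F)`.
-/

namespace Cfsg.Agent.Lib.Helper18.AutPSp

open Matrix Cfsg.Agent.Lib.Helper17

variable {F : Type*} [Field F] {m : ℕ}

/-- `Sp → GL` -/
def toGL : Sp m F →* GL (Fin m ⊕ Fin m) F :=
  (Matrix.symplecticGroup (Fin m) F).subtype.toHomUnits

theorem toGL_val (g : Sp m F) : (toGL g).1 = g.1 := rfl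

theorem toGL_mem_GSp (g : Sp m F) : toGL g ∈ Cfsg.GSp m F :=
  ⟨1, fun u v => by rw [Units.val_one, one_mul]; exact B_ac g u v⟩

/-- two elements acting in the same way on all points are equal modulo the centre -/
theorem pm_eq_of_par {g g' : Sp m F} (h : ∀ v, v ≠ 0 → Par (g ∙ v) (g' ∙ v)) : pm g = pm g' := by
  obtain ⟨c, hc⟩ := exists_scalar_on ⊤ (acL (g⁻¹ * g')) (by
    intro w _
    by_cases hw : w = 0
    · exact ⟨0, by rw [hw, map_zero, smul_zero]⟩
    obtain ⟨l, -, hl⟩ := h w hw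
    exact ⟨l, by rw [acL_apply, ac_mul, hl, ac_smul, ac_inv_ac]⟩)
  rw [QuotientGroup.eq]
  exact mem_center_of_scalar (ε := c) fun x => hc x trivial

section

variable (p : ℕ) [Fact p.Prime] [CharP F p] [Fintype F] (hm : 2 ≤ m) (h4 : m = 2 → p ≠ 2)
  (β : MulAut (Cfsg.PSp m F))

include hm h4

/-- the normalised case -/
theorem aut_form_normalised {i j : Fin m} (hij : i ≠ j) (he : Par (pt β (eb i)) (eb i))
    (hf : Par (pt β (fb i)) (fb i)) :
    ∃ (g : GL (Fin m ⊕ Fin m) F) (σ : F ≃+* F), g ∈ Cfsg.GSp m F ∧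
      Cfsg.IsInducedBySemilinearPSp g σ β := by
  obtain ⟨θ, ζ, α, T⟩ := exists_TD p hm h4 β hij he
  obtain ⟨σ, hσ⟩ := T.exists_sigma p hm h4 β hij he hf
  set Θ := Th i θ (α 1) σ with hΘ
  set A : Matrix (Fin m ⊕ Fin m) (Fin m ⊕ Fin m) F := Matrix.of fun r c => Θ (Pi.single c 1) r with hA
  have hΘA : ∀ x, Θ x = A *ᵥ (fun k => σ (x k)) :=
    semilinear_eq_mulVec Θ σ (T.Th_add p hm h4 β hij he hf hσ) (T.Th_smul p hm h4 β hij he hf hσ)
  have hc0 := T.alpha_one_ne_zero p hm h4 β hij he hf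
  have hAB : ∀ u v, B (A *ᵥ u) (A *ᵥ v) = α 1 * B u v := by
    intro u v
    have h1 := T.B_Th p hm h4 β hij he hf hσ (fun k => σ.symm (u k)) (fun k => σ.symm (v k))
    rw [← hΘ, hΘA, hΘA, B_map] at h1
    simpa only [RingEquiv.apply_symm_apply] using h1
  have hdet : A.det ≠ 0 := by
    intro h0
    obtain ⟨v, hv, hAv⟩ := Matrix.exists_mulVec_eq_zero_iff.2 h0
    apply hv
    apply eq_zero_of_B_left
    intro w
    have h1 := hAB v w
    rw [hAv, B_zero_left] at h1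
    exact (mul_eq_zero.1 h1.symm).resolve_left hc0
  set g : GL (Fin m ⊕ Fin m) F := Matrix.GeneralLinearGroup.mkOfDetNeZero A hdet with hg
  have hgA : g.1 = A := rfl
  refine ⟨g, σ, ⟨Units.mk0 (α 1) hc0, fun u v => hAB u v⟩, ?_⟩
  intro s s' hs
  obtain ⟨t, ht⟩ := pm_surjective (β (pm s))
  rw [← ht]
  apply pm_eq_of_par
  intro v hv
  -- write `v = Θ x`
  set x : V m F := fun k => σ.symm ((g⁻¹.1 *ᵥ v) k) with hx
  have hvx : v = Θ x := by
    rw [hΘA]
    simp only [hx, RingEquiv.apply_symm_apply]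
    rw [← hgA, Matrix.mulVec_mulVec, Units.mul_inv, Matrix.one_mulVec]
  have hx0 : x ≠ 0 := by
    rintro h0
    apply hv
    rw [hvx, h0, hΘA]
    have : (fun k => σ ((0 : V m F) k)) = (0 : V m F) := by
      funext k
      simp
    rw [this, Matrix.mulVec_zero]
  have h1 : s' ∙ Θ x = Θ (s ∙ x) := by
    show s'.1 *ᵥ Θ x = Θ (s ∙ x)
    rw [hs, hΘA, hΘA, hgA, Matrix.mulVec_mulVec, Matrix.mul_assoc, ← hgA, Units.inv_mul, Matrix.mul_one,
      ← Matrix.mulVec_mulVec]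
    congr 1
    funext k
    exact (RingHom.map_mulVec (σ : F →+* F) s.1 x k).symm
  have hsx : s ∙ x ≠ 0 := fun h => hx0 ((ac_eq_zero_iff s).1 h)
  rw [hvx, h1]
  have h2 := pt_equivariant p hm h4 β hx0 ht.symm
  have h3 := T.pt_eq p hm h4 β hij he hf hσ hx0
  have h5 := T.pt_eq p hm h4 β hij he hf hσ hsx
  exact ((h3.ac t).symm.trans h2.symm).trans h5

theorem exists_normalise (i : Fin m) :
    ∃ A₀ : Sp m F, Par (pt (MulAut.conj (pm A₀) * β) (eb i)) (eb i) ∧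
      Par (pt (MulAut.conj (pm A₀) * β) (fb i)) (fb i) := by
  set u := pt β (eb i) with hu
  set w := pt β (fb i) with hw
  have hδ : B w u ≠ 0 := by
    intro h
    have := (pt_perp_iff p hm h4 β (fb_ne_zero i) (eb_ne_zero i)).1 h
    rw [B_fb_eb] at this
    exact one_ne_zero this
  obtain ⟨A₀, h1, h2⟩ := exists_ac_pair (u := w) (v := u) (u' := B w u • fb i) (v' := eb i) hδ
    (by rw [B_smul_left, B_fb_eb, mul_one])
  refine ⟨A₀, ?_, ?_⟩
  · obtain ⟨a, ha⟩ := pt_spec p hm h4 β (eb_ne_zero i) 1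
    apply pt_unique p hm h4 _ (eb_ne_zero i) one_ne_zero (c := a)
    rw [MulAut.mul_apply, ha, MulAut.conj_apply, ← pm_inv, ← pm_mul, ← pm_mul, tv_conj, h2]
  · obtain ⟨a, ha⟩ := pt_spec p hm h4 β (fb_ne_zero i) 1
    have h3 : Par (pt (MulAut.conj (pm A₀) * β) (fb i)) (B w u • fb i) := by
      apply pt_unique p hm h4 _ (fb_ne_zero i) one_ne_zero (c := a)
      rw [MulAut.mul_apply, ha, MulAut.conj_apply, ← pm_inv, ← pm_mul, ← pm_mul, tv_conj, h1]
    exact h3.trans (Par.smul hδ).symm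

/-- **every automorphism of `PSp_{2m}(F)` is induced by a semilinear similitude** -/
theorem aut_form : ∃ (g : GL (Fin m ⊕ Fin m) F) (σ : F ≃+* F), g ∈ Cfsg.GSp m F ∧
    Cfsg.IsInducedBySemilinearPSp g σ β := by
  set i : Fin m := ⟨0, by omega⟩ with hi
  set j : Fin m := ⟨1, by omega⟩ with hj
  have hij : i ≠ j := by
    intro h
    have := congrArg Fin.val h
    simp [hi, hj] at this
  obtain ⟨A₀, he, hf⟩ := exists_normalise p hm h4 β i
  obtain ⟨g, σ, hg, hind⟩ := aut_form_normalised p hm h4 _ hij he hf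
  refine ⟨(toGL A₀)⁻¹ * g, σ, mul_mem (inv_mem (toGL_mem_GSp A₀)) hg, ?_⟩
  intro s s' hs
  have h1 := hind s (A₀ * s' * A₀⁻¹) (by
    show A₀.1 * s'.1 * (A₀⁻¹).1 = _
    rw [hs, _root_.mul_inv_rev, inv_inv, Units.val_mul, Units.val_mul, ← map_inv, toGL_val, toGL_val]
    have h2 : A₀.1 * (A₀⁻¹).1 = 1 := by
      have : (A₀ * A₀⁻¹).1 = 1 := by rw [mul_inv_cancel]; rfl
      exact this
    simp only [Matrix.mul_assoc]
    rw [h2, Matrix.mul_one, ← Matrix.mul_assoc A₀.1, h2, Matrix.one_mul])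
  rw [MulAut.mul_apply, MulAut.conj_apply] at h1
  have h2 : pm A₀ * β (pm s) * (pm A₀)⁻¹ = pm A₀ * pm s' * (pm A₀)⁻¹ := h1
  exact mul_left_cancel (mul_right_cancel h2)

theorem gammaPSp_eq_top : Cfsg.gammaPSp m F = ⊤ := by
  rw [eq_top_iff]
  intro β _
  exact Subgroup.subset_closure (aut_form p hm h4 β)

end

end Cfsg.Agent.Lib.Helper18.AutPSp
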