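import Mathlib
import Cfsg.Agent.Lib.Helper18.AutPSp.Final

set_option autoImplicit false
set_option linter.unusedSectionVars false
set_option linter.unusedVariables false

/-!
The determination of the automorphisms of `PSp_{2m}(F)` preserving transvections
(the same proof as for `aut_form`, with the hypothesis `TvP β` instead of `(m, p) ≠ (2, 2)`).
-/

namespace Cfsg.Agent.Lib.Helper18.AutPSp

open Matrix Cfsg.Agent.Lib.Helper17

variable {F : Type*} [Field F] {m : ℕ}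

/-- `β` and its inverse preserve transvections -/
structure TvP (β : MulAut (Cfsg.PSp m F)) : Prop where
  fwd : ∀ t, IsTv t → IsTv (β t)
  bwd : ∀ t, IsTv t → IsTv (β⁻¹ t)

theorem TvP.symm {β : MulAut (Cfsg.PSp m F)} (h : TvP β) : TvP β⁻¹ :=
  ⟨h.bwd, by rw [inv_inv]; exact h.fwd⟩

theorem TvP.conj_mul {β : MulAut (Cfsg.PSp m F)} (h : TvP β) (g : Cfsg.PSp m F) :
    TvP (MulAut.conj g * β) := by
  constructor
  · intro t ht
    rw [MulAut.mul_apply, MulAut.conj_apply]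
    exact (h.fwd t ht).conj g
  · intro t ht
    rw [_root_.mul_inv_rev, MulAut.mul_apply, ← map_inv, MulAut.conj_apply, inv_inv]
    have := ht.conj g⁻¹
    rw [inv_inv] at this
    exact h.bwd _ this

section

variable (p : ℕ) [Fact p.Prime] [CharP F p] [Fintype F]

include p

theorem exists_tv_of_aut_g (hm : 2 ≤ m) (β : MulAut (Cfsg.PSp m F)) (h4 : TvP β) {v : V m F}
    {a : F} (hv : v ≠ 0) (ha : a ≠ 0) :
    ∃ (w : V m F) (c : F), w ≠ 0 ∧ c ≠ 0 ∧ β (pm (tv v a)) = pm (tv w c) := by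
  obtain ⟨w, c, h⟩ := h4.fwd _ ⟨v, a, rfl⟩
  have h1 : ¬ (w = 0 ∨ c = 0) := by
    intro h2
    rw [(pm_tv_eq_one_iff p (by omega)).2 h2, ← map_one β] at h
    rcases (pm_tv_eq_one_iff p (by omega)).1 (β.injective h) with h3 | h3
    · exact hv h3
    · exact ha h3
  push Not at h1
  exact ⟨w, c, h1.1, h1.2, h⟩

theorem exists_centre_g (hm : 2 ≤ m) (β : MulAut (Cfsg.PSp m F)) (h4 : TvP β) {v : V m F}
    (hv : v ≠ 0) : ∃ v' : V m F, v' ≠ 0 ∧ ∀ a, ∃ a', β (pm (tv v a)) = pm (tv v' a') := by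
  have hm1 : 1 ≤ m := by omega
  obtain ⟨v', a₁, hv', ha₁, h1⟩ := exists_tv_of_aut_g p hm β h4 hv one_ne_zero
  refine ⟨v', hv', fun a => ?_⟩
  by_cases ha : a = 0
  · exact ⟨0, by rw [ha, tv_zero, tv_zero, pm_one, map_one]⟩
  obtain ⟨w, c, hw, hc, h2⟩ := exists_tv_of_aut_g p hm β h4 hv ha
  have hpar : Par v' w := by
    apply par_of_perp_imp hw
    intro z hz
    by_cases hz0 : z = 0
    · rw [hz0, B_zero_left]
    obtain ⟨z₀, c₀, hz₀, hc₀, h3⟩ := exists_tv_of_aut_g p hm β⁻¹ h4.symm hz0 one_ne_zero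
    have h4' : β (pm (tv z₀ c₀)) = pm (tv z 1) := by
      rw [← h3]
      exact MulAut.apply_inv_self _ β _
    have h5 := (pm_tv_commute_iff p hm1 (a := 1) hv' one_ne_zero ha₁).2 hz
    rw [← h4', ← h1, ← map_mul, ← map_mul] at h5
    have h6 := (pm_tv_commute_iff p hm1 hv hc₀ one_ne_zero).1 (β.injective h5)
    have h7 := congrArg β ((pm_tv_commute_iff p hm1 hv hc₀ ha).2 h6)
    rw [map_mul, map_mul, h4', h2] at h7
    exact (pm_tv_commute_iff p hm1 hw one_ne_zero hc).1 h7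
  obtain ⟨b, hb⟩ := hpar.exists_tv c
  exact ⟨b, by rw [h2, hb]⟩

theorem pt_ne_zero_g (hm : 2 ≤ m) (β : MulAut (Cfsg.PSp m F)) (h4 : TvP β) {v : V m F}
    (hv : v ≠ 0) : pt β v ≠ 0 :=
  (Classical.epsilon_spec (exists_centre_g p hm β h4 hv)).1

theorem pt_spec_g (hm : 2 ≤ m) (β : MulAut (Cfsg.PSp m F)) (h4 : TvP β) {v : V m F}
    (hv : v ≠ 0) (a : F) : ∃ a', β (pm (tv v a)) = pm (tv (pt β v) a') :=
  (Classical.epsilon_spec (exists_centre_g p hm β h4 hv)).2 a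

theorem pt_spec_g' (hm : 2 ≤ m) (β : MulAut (Cfsg.PSp m F)) (h4 : TvP β) {v : V m F}
    (hv : v ≠ 0) {a : F} (ha : a ≠ 0) : ∃ a', a' ≠ 0 ∧ β (pm (tv v a)) = pm (tv (pt β v) a') := by
  obtain ⟨a', h⟩ := pt_spec_g p hm β h4 hv a
  refine ⟨a', ?_, h⟩
  rintro rfl
  rw [tv_zero, pm_one, ← map_one β] at h
  rcases (pm_tv_eq_one_iff p (by omega)).1 (β.injective h) with h3 | h3
  · exact hv h3
  · exact ha h3

theorem pt_unique_g (hm : 2 ≤ m) (β : MulAut (Cfsg.PSp m F)) (h4 : TvP β) {v w : V m F}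
    {a c : F} (hv : v ≠ 0) (ha : a ≠ 0) (h : β (pm (tv v a)) = pm (tv w c)) : Par (pt β v) w := by
  obtain ⟨a', ha', h1⟩ := pt_spec_g' p hm β h4 hv ha
  exact par_of_pm_tv_eq p (by omega) (h1.symm.trans h) (pt_ne_zero_g p hm β h4 hv) ha'

theorem pt_perp_iff_g (hm : 2 ≤ m) (β : MulAut (Cfsg.PSp m F)) (h4 : TvP β) {u v : V m F}
    (hu : u ≠ 0) (hv : v ≠ 0) : B (pt β u) (pt β v) = 0 ↔ B u v = 0 := by
  obtain ⟨a, ha, h1⟩ := pt_spec_g' p hm β h4 hu one_ne_zero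
  obtain ⟨b, hb, h2⟩ := pt_spec_g' p hm β h4 hv one_ne_zero
  rw [← pm_tv_commute_iff p (by omega) (pt_ne_zero_g p hm β h4 hv) ha hb,
    ← pm_tv_commute_iff p (by omega) hv one_ne_zero one_ne_zero, ← h1, ← h2, ← map_mul, ← map_mul]
  exact β.injective.eq_iff

theorem pt_equivariant_g (hm : 2 ≤ m) (β : MulAut (Cfsg.PSp m F)) (h4 : TvP β) {v : V m F}
    (hv : v ≠ 0) {g g' : Sp m F} (hg : β (pm g) = pm g') : Par (pt β (g ∙ v)) (g' ∙ pt β v) := by
  obtain ⟨a, ha, h1⟩ := pt_spec_g' p hm β h4 hv one_ne_zero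
  apply pt_unique_g p hm β h4 (a := 1) (c := a) (fun h => hv ((ac_eq_zero_iff g).1 h)) one_ne_zero
  rw [← tv_conj, ← tv_conj, pm_mul, pm_mul, pm_mul, pm_mul, map_mul, map_mul, pm_inv, map_inv, hg, h1,
    pm_inv]

theorem pt_par_g (hm : 2 ≤ m) (β : MulAut (Cfsg.PSp m F)) (h4 : TvP β) {u v : V m F}
    (hu : u ≠ 0) (h : Par u v) : Par (pt β u) (pt β v) := by
  obtain ⟨b, hb⟩ := h.exists_tv 1
  obtain ⟨a', h1⟩ := pt_spec_g p hm β h4 hu b
  rw [← hb] at h1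
  exact (pt_unique_g p hm β h4 (h.ne_zero hu) one_ne_zero h1).symm

theorem pt_surjective_g (hm : 2 ≤ m) (β : MulAut (Cfsg.PSp m F)) (h4 : TvP β) {w : V m F}
    (hw : w ≠ 0) : ∃ v : V m F, v ≠ 0 ∧ Par (pt β v) w := by
  obtain ⟨a, ha, h1⟩ := pt_spec_g' p hm β⁻¹ h4.symm hw one_ne_zero
  refine ⟨pt β⁻¹ w, pt_ne_zero_g p hm β⁻¹ h4.symm hw, ?_⟩
  apply pt_unique_g p hm β h4 (pt_ne_zero_g p hm β⁻¹ h4.symm hw) ha (c := 1)
  rw [← h1]
  exact MulAut.apply_inv_self _ β _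

end

section

variable (p : ℕ) [Fact p.Prime] [CharP F p] [Fintype F]

include p

theorem perp_transfer_g (hm : 2 ≤ m) (β : MulAut (Cfsg.PSp m F)) (h4 : TvP β)
    {u v u' v' : V m F} (hu : u ≠ 0) (hv : v ≠ 0) (hu' : Par (pt β u) u') (hv' : Par (pt β v) v') :
    B u' v' = 0 ↔ B u v = 0 := by
  rw [← pt_perp_iff_g p hm β h4 hu hv, hu'.B_left, hv'.B_right]

theorem KP.aut_g (hm : 2 ≤ m) (β : MulAut (Cfsg.PSp m F)) (h4 : TvP β) {e : V m F}
    (he0 : e ≠ 0) (he : Par (pt β e) e) {g g' : Sp m F} (hg : β (pm g) = pm g') (h : KP e g) :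
    KP e g' := by
  intro u' hu' z' hz' hzu'
  by_cases hu0 : u' = 0
  · rw [hu0, ac_zero, B_zero_right]
  by_cases hz0 : z' = 0
  · rw [hz0, B_zero_left]
  obtain ⟨u, hu, hpu⟩ := pt_surjective_g p hm β h4 hu0
  obtain ⟨z, hz, hpz⟩ := pt_surjective_g p hm β h4 hz0
  have h1 := (perp_transfer_g p hm β h4 hu he0 hpu he).1 hu'
  have h2 := (perp_transfer_g p hm β h4 hz he0 hpz he).1 hz'
  have h3 := (perp_transfer_g p hm β h4 hz hu hpz hpu).1 hzu'
  have h5 := h u h1 z h2 h3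
  have h6 : Par (pt β (g ∙ u)) (g' ∙ u') := (pt_equivariant_g p hm β h4 hu hg).trans (hpu.ac g')
  exact (perp_transfer_g p hm β h4 hz (fun h0 => hu ((ac_eq_zero_iff g).1 h0)) hpz h6).2 h5

/-- the image of a Siegel element -/
theorem exists_sg_of_aut_g (hm : 2 ≤ m) (β : MulAut (Cfsg.PSp m F)) (h4 : TvP β)
    {i j : Fin m} (hij : i ≠ j) (he : Par (pt β (eb i)) (eb i)) {y : V m F} (hy : B y (eb i) = 0)
    (b : F) : ∃ (y' : V m F) (b' : F), y' ∈ WW i ∧ β (pm (sg (eb i) y b)) = pm (sg (eb i) y' b') := by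
  obtain ⟨g', hg'⟩ := pm_surjective (β (pm (sg (eb i) y b)))
  have h1 := (KP_sg hy b).aut_g p hm β h4 (eb_ne_zero i) he hg'.symm
  obtain ⟨y', b', hy', h2⟩ := h1.form p hij (by
    rw [hg', ← map_pow, ← pm_pow, sg_pow_char p hy, pm_one, map_one])
  refine ⟨PW i y', b' + 2 * (- B y' (fb i)), PW_mem i y', ?_⟩
  rw [← hg', h2, ← sg_add_smul (B_PW_eb i y')]
  congr 2
  conv_lhs => rw [eq_PW_add i y', hy', zero_smul, add_zero]
  module

end

section

variable (p : ℕ) [Fact p.Prime] [CharP F p] [Fintype F] (hm : 2 ≤ m)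
  (β : MulAut (Cfsg.PSp m F)) (h4 : TvP β) {i j : Fin m} (hij : i ≠ j) (he : Par (pt β (eb i)) (eb i))
  (hf : Par (pt β (fb i)) (fb i))

include p hm h4 hij he

theorem exists_TD_g : ∃ (θ : V m F → V m F) (ζ : V m F → F) (α : F → F), TD β i θ ζ α := by
  have h : ∀ y, y ∈ WW i → ∃ (y' : V m F) (b' : F), y' ∈ WW i ∧
      β (pm (sg (eb i) y 0)) = pm (sg (eb i) y' b') :=
    fun y hy => exists_sg_of_aut_g p hm β h4 hij he hy.1 0
  choose! θ ζ hθ using h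
  have h' : ∀ b : F, ∃ a : F, β (pm (tv (eb i) b)) = pm (tv (eb i) a) := by
    intro b
    obtain ⟨a, ha⟩ := pt_spec_g p hm β h4 (eb_ne_zero i) b
    obtain ⟨c, hc⟩ := he.symm.exists_tv a
    exact ⟨c, by rw [ha, hc]⟩
  choose α hα using h'
  refine ⟨θ, ζ, α, fun y hy => (hθ y hy).1, fun y hy b => ?_, hα⟩
  have h1 : sg (eb i) y b = sg (eb i) y 0 * tv (eb i) b := by
    rw [← sg_zero, sg_mul hy.1 (B_zero_left _), B_zero_left, add_zero, zero_add, add_zero]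
  have h2 : sg (eb i) (θ y) (ζ y + α b) = sg (eb i) (θ y) (ζ y) * tv (eb i) (α b) := by
    rw [← sg_zero, sg_mul (hθ y hy).1.1 (B_zero_left _), B_zero_left, add_zero, add_zero]
  rw [h1, h2, pm_mul, pm_mul, map_mul, (hθ y hy).2, hα]

variable {θ : V m F → V m F} {ζ : V m F → F} {α : F → F} (T : TD β i θ ζ α)

include T

theorem TD.alpha_add_g (a b : F) : α (a + b) = α a + α b := by
  have h1 := T.tv (a + b)
  rw [← tv_mul, pm_mul, map_mul, T.tv, T.tv, ← pm_mul, tv_mul] at h1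
  exact (tv_inj_right (eb_ne_zero i)
    (eq_of_pm_eq p (by omega) h1 (tv_pow_char p _ _) (tv_pow_char p _ _))).symm

theorem TD.alpha_zero_g : α 0 = 0 := by
  have := T.alpha_add_g p hm β h4 hij he 0 0
  rw [add_zero] at this
  exact left_eq_add.1 this

theorem TD.theta_zero_g : θ 0 = 0 ∧ ζ 0 = 0 := by
  have h1 := T.eq 0 (WW i).zero_mem 0
  rw [sg_zero_zero, pm_one, map_one, T.alpha_zero_g p hm β h4 hij he, add_zero,
    ← pm_one, ← sg_zero_zero (eb i)] at h1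
  obtain ⟨h2, h3⟩ := pm_sg_inj p (by omega) (WW i).zero_mem (T.mem 0 (WW i).zero_mem) h1
  exact ⟨h2.symm, h3.symm⟩

theorem TD.theta_add_g {y y' : V m F} (hy : y ∈ WW i) (hy' : y' ∈ WW i) :
    θ (y + y') = θ y + θ y' := by
  have h1 := T.eq (y + y') ((WW i).add_mem hy hy') (0 + 0 + B y' y)
  rw [← sg_mul hy.1 hy'.1, pm_mul, map_mul, T.eq y hy, T.eq y' hy', ← pm_mul,
    sg_mul (T.mem y hy).1 (T.mem y' hy').1] at h1
  exact (pm_sg_inj p (by omega) ((WW i).add_mem (T.mem y hy) (T.mem y' hy'))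
    (T.mem _ ((WW i).add_mem hy hy')) h1).1.symm

include hf

theorem TD.pt_opp_g {y : V m F} (hy : y ∈ WW i) (b : F) :
    Par (pt β (fb i + y + b • eb i)) (fb i + θ y + (ζ y + α b) • eb i) := by
  rw [← sg_ac_fb hy, ← sg_ac_fb (T.mem y hy)]
  exact (pt_equivariant_g p hm β h4 (fb_ne_zero i) (T.eq y hy b)).trans (hf.ac _)

theorem TD.perp_iff_g {y y' : V m F} (hy : y ∈ WW i) (hy' : y' ∈ WW i) (b b' : F) :
    (ζ y' + α b') - (ζ y + α b) + B (θ y) (θ y') = 0 ↔ b' - b + B y y' = 0 := by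
  rw [← B_opp hy hy', ← B_opp (T.mem y hy) (T.mem y' hy')]
  exact perp_transfer_g p hm β h4 (opp_ne_zero hy b) (opp_ne_zero hy' b')
    (T.pt_opp_g p hm β h4 hij he hf hy b) (T.pt_opp_g p hm β h4 hij he hf hy' b')

theorem TD.zeta_eq_zero_g {y : V m F} (hy : y ∈ WW i) : ζ y = 0 := by
  have h1 := (T.perp_iff_g p hm β h4 hij he hf hy (WW i).zero_mem 0 0).2
    (by rw [B_zero_right]; ring)
  rw [(T.theta_zero_g p hm β h4 hij he).1, (T.theta_zero_g p hm β h4 hij he).2,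
    T.alpha_zero_g p hm β h4 hij he, B_zero_right] at h1
  linear_combination -h1

theorem TD.B_theta_g {y y' : V m F} (hy : y ∈ WW i) (hy' : y' ∈ WW i) :
    B (θ y) (θ y') = α (B y y') := by
  have h1 := (T.perp_iff_g p hm β h4 hij he hf hy hy' (B y y') 0).2 (by ring)
  rw [T.zeta_eq_zero_g p hm β h4 hij he hf hy, T.zeta_eq_zero_g p hm β h4 hij he hf hy',
    T.alpha_zero_g p hm β h4 hij he] at h1
  linear_combination h1

theorem TD.theta_eq_zero_g {y : V m F} (hy : y ∈ WW i) (h : θ y = 0) : y = 0 := by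
  have h1 := T.eq y hy 0
  rw [h, T.zeta_eq_zero_g p hm β h4 hij he hf hy, T.alpha_zero_g p hm β h4 hij he, add_zero, sg_zero_zero,
    pm_one, ← map_one β] at h1
  have h2 := β.injective h1
  rw [← pm_one, ← sg_zero_zero (eb i)] at h2
  exact (pm_sg_inj p (by omega) hy (WW i).zero_mem h2).1

theorem TD.eq_g' {y : V m F} (hy : y ∈ WW i) (b : F) :
    β (pm (sg (eb i) y b)) = pm (sg (eb i) (θ y) (α b)) := by
  rw [T.eq y hy, T.zeta_eq_zero_g p hm β h4 hij he hf hy, zero_add]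

theorem TD.pt_opp_g' {y : V m F} (hy : y ∈ WW i) (b : F) :
    Par (pt β (fb i + y + b • eb i)) (fb i + θ y + α b • eb i) := by
  have := T.pt_opp_g p hm β h4 hij he hf hy b
  rwa [T.zeta_eq_zero_g p hm β h4 hij he hf hy, zero_add] at this

end

end Cfsg.Agent.Lib.Helper18.AutPSp
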