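import Mathlib
import Cfsg.Agent.Lib.Helper18.AutPSp.Gen1

set_option autoImplicit false
set_option linter.unusedSectionVars false
set_option linter.unusedVariables false

/-!
The determination of the automorphisms of `PSp_{2m}(F)` preserving transvections
(the same proof as for `aut_form`, with the hypothesis `TvP β` instead of `(m, p) ≠ (2, 2)`).
-/

namespace Cfsg.Agent.Lib.Helper18.AutPSp

open Matrix Cfsg.Agent.Lib.Helper17

variable {F : Type*} [Field F] {m : ℕ}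

section

variable (p : ℕ) [Fact p.Prime] [CharP F p] [Fintype F] (hm : 2 ≤ m)
  (β : MulAut (Cfsg.PSp m F)) (h4 : TvP β) {i j : Fin m} (hij : i ≠ j) (he : Par (pt β (eb i)) (eb i))
  (hf : Par (pt β (fb i)) (fb i))
  {θ : V m F → V m F} {ζ : V m F → F} {α : F → F} (T : TD β i θ ζ α)

include p hm h4 hij he hf T

theorem TD.exists_scalar_g {μ : F} (hμ : μ ≠ 0) :
    ∃ μ' : F, μ' ≠ 0 ∧ ∀ y ∈ WW i, θ (μ • y) = μ' • θ y := by
  obtain ⟨h', hh'⟩ := pm_surjective (β (pm (tor i μ hμ)))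
  have h1 : Par (eb i) (h' ∙ (eb i : V m F)) := by
    have h2 := pt_equivariant_g p hm β h4 (eb_ne_zero i) hh'.symm
    rw [ac_tor_eb] at h2
    exact he.symm.trans ((pt_par_g p hm β h4 (eb_ne_zero i) (Par.smul hμ)).trans (h2.trans (he.ac h')))
  have h3 : ∀ w ∈ WW i, ∃ c : F, acL h' w = c • w := by
    intro w' hw'
    by_cases hw0 : w' = 0
    · exact ⟨0, by rw [hw0, map_zero, smul_zero]⟩
    obtain ⟨w, hw, hpw⟩ := pt_surjective_g p hm β h4 hw0
    have hwW : w ∈ WW i :=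
      ⟨(perp_transfer_g p hm β h4 hw (eb_ne_zero i) hpw he).1 hw'.1,
        (perp_transfer_g p hm β h4 hw (fb_ne_zero i) hpw hf).1 hw'.2⟩
    have h2 := pt_equivariant_g p hm β h4 hw hh'.symm
    rw [ac_tor_of_mem μ hμ hwW] at h2
    obtain ⟨c, -, hc⟩ := hpw.symm.trans (h2.trans (hpw.ac h'))
    exact ⟨c, hc⟩
  obtain ⟨l, hl⟩ := exists_scalar_on (WW i) (acL h') h3
  have hl2 : l ^ 2 = 1 := sq_eq_one_of_scalar hij (g := h') (l := l) (fun w hw =>
    ⟨0, by rw [zero_smul, add_zero]; exact hl w hw⟩)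
  obtain ⟨c, hc0, hc⟩ := h1
  set h₁ := scl l hl2 * h' with hh₁
  have hpm : pm h₁ = β (pm (tor i μ hμ)) := by rw [hh₁, pm_mul, pm_scl, one_mul, hh']
  have h5 : ∀ w ∈ WW i, h₁ ∙ w = w := by
    intro w hw
    have := hl w hw
    rw [acL_apply] at this
    rw [hh₁, ac_mul, ac_scl, this, smul_smul, ← sq, hl2, one_smul]
  have h6 : h₁ ∙ (eb i : V m F) = (l * c) • eb i := by
    rw [hh₁, ac_mul, ac_scl, hc, smul_smul]
  have hl0 : l ≠ 0 := by
    rintro rfl
    simp at hl2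
  refine ⟨l * c, mul_ne_zero hl0 hc0, fun y hy => ?_⟩
  have h7 : tor i μ hμ * sg (eb i) y 0 * (tor i μ hμ)⁻¹ = sg (eb i) (μ • y) 0 := by
    rw [sg_conj, ac_tor_eb, ac_tor_of_mem μ hμ hy, sg_smul_left hy.1, mul_zero]
  have h8 := congrArg (fun g => β (pm g)) h7
  simp only [pm_mul, pm_inv, map_mul, map_inv] at h8
  rw [← hpm, T.eq_g' p hm β h4 hij he hf hy, T.eq_g' p hm β h4 hij he hf ((WW i).smul_mem μ hy), ← pm_inv,
    ← pm_mul, ← pm_mul, sg_conj, h6, h5 _ (T.mem y hy), sg_smul_left (T.mem y hy).1] at h8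
  exact (pm_sg_inj p (by omega) ((WW i).smul_mem _ (T.mem y hy))
    (T.mem _ ((WW i).smul_mem μ hy)) h8).1.symm

theorem TD.exists_sigma_g : ∃ σ : F ≃+* F, ∀ (μ : F), ∀ y ∈ WW i, θ (μ • y) = σ μ • θ y := by
  have H : ∀ μ : F, ∃ μ' : F, ∀ y ∈ WW i, θ (μ • y) = μ' • θ y := by
    intro μ
    by_cases hμ : μ = 0
    · exact ⟨0, fun y _ => by
        rw [hμ, zero_smul, zero_smul, (T.theta_zero_g p hm β h4 hij he).1]⟩
    · obtain ⟨μ', -, h⟩ := T.exists_scalar_g p hm β h4 hij he hf hμ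
      exact ⟨μ', h⟩
  choose σ hσ using H
  have hy₀ : (eb j : V m F) ∈ WW i := eb_mem_WW hij
  have hθ0 : θ (eb j) ≠ 0 := fun h => eb_ne_zero j (T.theta_eq_zero_g p hm β h4 hij he hf hy₀ h)
  have huniq : ∀ {a b : F}, a • θ (eb j) = b • θ (eb j) → a = b := by
    intro a b hab
    exact smul_left_injective F hθ0 hab
  let σ' : F →+* F :=
    { toFun := σ
      map_one' := by
        apply huniq
        rw [← hσ 1 _ hy₀, one_smul, one_smul]
      map_mul' := by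
        intro a b
        apply huniq
        rw [← hσ _ _ hy₀, mul_smul, hσ a _ ((WW i).smul_mem b hy₀), hσ b _ hy₀, smul_smul]
      map_zero' := by
        apply huniq
        rw [← hσ 0 _ hy₀, zero_smul, zero_smul, (T.theta_zero_g p hm β h4 hij he).1]
      map_add' := by
        intro a b
        apply huniq
        rw [← hσ _ _ hy₀, add_smul, T.theta_add_g p hm β h4 hij he ((WW i).smul_mem a hy₀)
          ((WW i).smul_mem b hy₀), hσ a _ hy₀, hσ b _ hy₀, add_smul] }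
  exact ⟨RingEquiv.ofBijective σ' ⟨σ'.injective, Finite.surjective_of_injective σ'.injective⟩, hσ⟩

theorem TD.alpha_one_ne_zero_g : α 1 ≠ 0 := by
  intro h
  have h1 := T.tv 1
  rw [h, tv_zero, pm_one, ← map_one β] at h1
  rcases (pm_tv_eq_one_iff p (by omega)).1 (β.injective h1) with h2 | h2
  · exact eb_ne_zero i h2
  · exact one_ne_zero h2

theorem TD.alpha_eq_g {σ : F ≃+* F} (hσ : ∀ (μ : F), ∀ y ∈ WW i, θ (μ • y) = σ μ • θ y) (c : F) :
    α c = α 1 * σ c := by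
  have h1 := T.B_theta_g p hm β h4 hij he hf ((WW i).smul_mem c (fb_mem_WW (F := F) hij))
    (eb_mem_WW (F := F) hij)
  rw [hσ c _ (fb_mem_WW hij), B_smul_left, B_smul_left,
    T.B_theta_g p hm β h4 hij he hf (fb_mem_WW (F := F) hij) (eb_mem_WW (F := F) hij), B_fb_eb,
    mul_one] at h1
  rw [← h1, mul_comm]

end

section

variable (p : ℕ) [Fact p.Prime] [CharP F p] [Fintype F] (hm : 2 ≤ m)
  (β : MulAut (Cfsg.PSp m F)) (h4 : TvP β) {i j : Fin m} (hij : i ≠ j) (he : Par (pt β (eb i)) (eb i))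
  (hf : Par (pt β (fb i)) (fb i))
  {θ : V m F → V m F} {ζ : V m F → F} {α : F → F} (T : TD β i θ ζ α)
  {σ : F ≃+* F} (hσ : ∀ (μ : F), ∀ y ∈ WW i, θ (μ • y) = σ μ • θ y)

include p hm h4 hij he hf T hσ

theorem TD.Th_add_g (x y : V m F) : Th i θ (α 1) σ (x + y) = Th i θ (α 1) σ x + Th i θ (α 1) σ y := by
  simp only [Th, B_add_left, map_add, neg_add, T.theta_add_g p hm β h4 hij he (PW_mem i x) (PW_mem i y)]
  module

theorem TD.Th_smul_g (a : F) (x : V m F) : Th i θ (α 1) σ (a • x) = σ a • Th i θ (α 1) σ x := by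
  simp only [Th, B_smul_left, map_smul, hσ a _ (PW_mem i x), map_mul, map_neg]
  module

theorem TD.B_Th_g (x y : V m F) :
    B (Th i θ (α 1) σ x) (Th i θ (α 1) σ y) = α 1 * σ (B x y) := by
  have h1 : B (θ (PW i x)) (eb i) = 0 := (T.mem _ (PW_mem i x)).1
  have h2 : B (θ (PW i x)) (fb i) = 0 := (T.mem _ (PW_mem i x)).2
  have h3 : B (eb i) (θ (PW i y)) = 0 := B_eq_zero_comm.1 (T.mem _ (PW_mem i y)).1
  have h5 : B (fb i) (θ (PW i y)) = 0 := B_eq_zero_comm.1 (T.mem _ (PW_mem i y)).2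
  simp only [Th, B_add_left, B_add_right, B_smul_left, B_smul_right, B_eb_eb, B_fb_fb, B_eb_fb,
    B_fb_eb, h1, h2, h3, h5, T.B_theta_g p hm β h4 hij he hf (PW_mem i x) (PW_mem i y)]
  rw [T.alpha_eq_g p hm β h4 hij he hf hσ (B (PW i x) (PW i y)), B_eq_PW i x y]
  simp only [map_add, map_sub, map_mul, map_neg]
  ring

theorem TD.Th_ne_zero_g {x : V m F} (hx : x ≠ 0) : Th i θ (α 1) σ x ≠ 0 := by
  intro h
  apply hx
  apply eq_zero_of_B_left
  intro y
  have h1 := T.B_Th_g p hm β h4 hij he hf hσ x y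
  rw [h, B_zero_left] at h1
  have h2 := (mul_eq_zero.1 h1.symm).resolve_left (T.alpha_one_ne_zero_g p hm β h4 hij he hf)
  exact (map_eq_zero σ).1 h2

theorem TD.Th_opp_g {y : V m F} (hy : y ∈ WW i) (b : F) :
    Th i θ (α 1) σ (fb i + y + b • eb i) = fb i + θ y + α b • eb i := by
  have h1 : B y (eb i) = 0 := hy.1
  have h2 : B y (fb i) = 0 := hy.2
  rw [T.alpha_eq_g p hm β h4 hij he hf hσ b]
  simp only [Th, map_add, map_smul, PW_fb, PW_eb, PW_of_mem h1 h2, B_add_left, B_smul_left, B_fb_fb,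
    B_fb_eb, B_eb_fb, B_eb_eb, h1, h2]
  simp only [smul_zero, add_zero, zero_add, mul_zero, mul_neg, mul_one, neg_neg, map_one, map_zero]
  module

theorem TD.pt_of_opp_g {x : V m F} (hx : B x (eb i) ≠ 0) : Par (pt β x) (Th i θ (α 1) σ x) := by
  set t := B x (eb i) with ht
  set y := t⁻¹ • PW i x with hy
  set b := - (t⁻¹ * B x (fb i)) with hb
  have hyW : y ∈ WW i := (WW i).smul_mem _ (PW_mem i x)
  have hx' : x = t • (fb i + y + b • eb i) := by
    conv_lhs => rw [eq_PW_add i x]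
    rw [hy, hb, ← ht, smul_add, smul_add, smul_smul, smul_smul, mul_inv_cancel₀ hx, one_smul, mul_neg,
      ← mul_assoc, mul_inv_cancel₀ hx, one_mul]
    module
  have h1 : Par (fb i + y + b • eb i) x := ⟨t, hx, hx'⟩
  have h2 := pt_par_g p hm β h4 (opp_ne_zero hyW b) h1
  have h3 := T.pt_opp_g' p hm β h4 hij he hf hyW b
  rw [← T.Th_opp_g p hm β h4 hij he hf hσ hyW b] at h3
  refine h2.symm.trans (h3.trans ⟨σ t, (map_ne_zero σ).2 hx, ?_⟩)
  conv_lhs => rw [hx']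
  exact T.Th_smul_g p hm β h4 hij he hf hσ _ _

theorem TD.pt_eq_g {x : V m F} (hx : x ≠ 0) : Par (pt β x) (Th i θ (α 1) σ x) := by
  apply par_of_opp (eb_ne_zero i) (pt_ne_zero_g p hm β h4 hx) (T.Th_ne_zero_g p hm β h4 hij he hf hσ hx)
  intro v' hv'
  have hv'0 : v' ≠ 0 := by
    rintro rfl
    exact hv' (B_zero_left _)
  obtain ⟨v, hv, hpv⟩ := pt_surjective_g p hm β h4 hv'0
  have hve : B v (eb i) ≠ 0 := fun h =>
    hv' ((perp_transfer_g p hm β h4 hv (eb_ne_zero i) hpv he).2 h)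
  have h1 : Par v' (Th i θ (α 1) σ v) := hpv.symm.trans (T.pt_of_opp_g p hm β h4 hij he hf hσ hve)
  rw [perp_transfer_g p hm β h4 hv hx hpv (Par.refl _), h1.B_left, T.B_Th_g p hm β h4 hij he hf hσ,
    mul_eq_zero, or_iff_right (T.alpha_one_ne_zero_g p hm β h4 hij he hf), map_eq_zero]

end

section

variable (p : ℕ) [Fact p.Prime] [CharP F p] [Fintype F] (hm : 2 ≤ m)
  (β : MulAut (Cfsg.PSp m F)) (h4 : TvP β)

include p hm h4

/-- the normalised case -/
theorem aut_form_normalised_g {i j : Fin m} (hij : i ≠ j) (he : Par (pt β (eb i)) (eb i))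
    (hf : Par (pt β (fb i)) (fb i)) :
    ∃ (g : GL (Fin m ⊕ Fin m) F) (σ : F ≃+* F), g ∈ Cfsg.GSp m F ∧
      Cfsg.IsInducedBySemilinearPSp g σ β := by
  obtain ⟨θ, ζ, α, T⟩ := exists_TD_g p hm β h4 hij he
  obtain ⟨σ, hσ⟩ := T.exists_sigma_g p hm β h4 hij he hf
  set Θ := Th i θ (α 1) σ with hΘ
  set A : Matrix (Fin m ⊕ Fin m) (Fin m ⊕ Fin m) F := Matrix.of fun r c => Θ (Pi.single c 1) r with hA
  have hΘA : ∀ x, Θ x = A *ᵥ (fun k => σ (x k)) :=
    semilinear_eq_mulVec Θ σ (T.Th_add_g p hm β h4 hij he hf hσ) (T.Th_smul_g p hm β h4 hij he hf hσ)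
  have hc0 := T.alpha_one_ne_zero_g p hm β h4 hij he hf
  have hAB : ∀ u v, B (A *ᵥ u) (A *ᵥ v) = α 1 * B u v := by
    intro u v
    have h1 := T.B_Th_g p hm β h4 hij he hf hσ (fun k => σ.symm (u k)) (fun k => σ.symm (v k))
    rw [← hΘ, hΘA, hΘA, B_map] at h1
    simpa only [RingEquiv.apply_symm_apply] using h1
  have hdet : A.det ≠ 0 := by
    intro h0
    obtain ⟨v, hv, hAv⟩ := Matrix.exists_mulVec_eq_zero_iff.2 h0
    apply hv
    apply eq_zero_of_B_left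
    intro w
    have h1 := hAB v w
    rw [hAv, B_zero_left] at h1
    exact (mul_eq_zero.1 h1.symm).resolve_left hc0
  set g : GL (Fin m ⊕ Fin m) F := Matrix.GeneralLinearGroup.mkOfDetNeZero A hdet with hg
  have hgA : g.1 = A := rfl
  refine ⟨g, σ, ⟨Units.mk0 (α 1) hc0, fun u v => hAB u v⟩, ?_⟩
  intro s s' hs
  obtain ⟨t, ht⟩ := pm_surjective (β (pm s))
  rw [← ht]
  apply pm_eq_of_par
  intro v hv
  -- write `v = Θ x`
  set x : V m F := fun k => σ.symm ((g⁻¹.1 *ᵥ v) k) with hx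
  have hvx : v = Θ x := by
    rw [hΘA]
    simp only [hx, RingEquiv.apply_symm_apply]
    rw [← hgA, Matrix.mulVec_mulVec, Units.mul_inv, Matrix.one_mulVec]
  have hx0 : x ≠ 0 := by
    rintro h0
    apply hv
    rw [hvx, h0, hΘA]
    have : (fun k => σ ((0 : V m F) k)) = (0 : V m F) := by
      funext k
      simp
    rw [this, Matrix.mulVec_zero]
  have h1 : s' ∙ Θ x = Θ (s ∙ x) := by
    show s'.1 *ᵥ Θ x = Θ (s ∙ x)
    rw [hs, hΘA, hΘA, hgA, Matrix.mulVec_mulVec, Matrix.mul_assoc, ← hgA, Units.inv_mul, Matrix.mul_one,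
      ← Matrix.mulVec_mulVec]
    congr 1
    funext k
    exact (RingHom.map_mulVec (σ : F →+* F) s.1 x k).symm
  have hsx : s ∙ x ≠ 0 := fun h => hx0 ((ac_eq_zero_iff s).1 h)
  rw [hvx, h1]
  have h2 := pt_equivariant_g p hm β h4 hx0 ht.symm
  have h3 := T.pt_eq_g p hm β h4 hij he hf hσ hx0
  have h5 := T.pt_eq_g p hm β h4 hij he hf hσ hsx
  exact ((h3.ac t).symm.trans h2.symm).trans h5

theorem exists_normalise_g (i : Fin m) :
    ∃ A₀ : Sp m F, Par (pt (MulAut.conj (pm A₀) * β) (eb i)) (eb i) ∧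
      Par (pt (MulAut.conj (pm A₀) * β) (fb i)) (fb i) := by
  set u := pt β (eb i) with hu
  set w := pt β (fb i) with hw
  have hδ : B w u ≠ 0 := by
    intro h
    have := (pt_perp_iff_g p hm β h4 (fb_ne_zero i) (eb_ne_zero i)).1 h
    rw [B_fb_eb] at this
    exact one_ne_zero this
  obtain ⟨A₀, h1, h2⟩ := exists_ac_pair (u := w) (v := u) (u' := B w u • fb i) (v' := eb i) hδ
    (by rw [B_smul_left, B_fb_eb, mul_one])
  refine ⟨A₀, ?_, ?_⟩
  · obtain ⟨a, ha⟩ := pt_spec_g p hm β h4 (eb_ne_zero i) 1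
    apply pt_unique_g p hm _ (h4.conj_mul _) (eb_ne_zero i) one_ne_zero (c := a)
    rw [MulAut.mul_apply, ha, MulAut.conj_apply, ← pm_inv, ← pm_mul, ← pm_mul, tv_conj, h2]
  · obtain ⟨a, ha⟩ := pt_spec_g p hm β h4 (fb_ne_zero i) 1
    have h3 : Par (pt (MulAut.conj (pm A₀) * β) (fb i)) (B w u • fb i) := by
      apply pt_unique_g p hm _ (h4.conj_mul _) (fb_ne_zero i) one_ne_zero (c := a)
      rw [MulAut.mul_apply, ha, MulAut.conj_apply, ← pm_inv, ← pm_mul, ← pm_mul, tv_conj, h1]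
    exact h3.trans (Par.smul hδ).symm

/-- **every automorphism of `PSp_{2m}(F)` is induced by a semilinear similitude** -/
theorem aut_form_g : ∃ (g : GL (Fin m ⊕ Fin m) F) (σ : F ≃+* F), g ∈ Cfsg.GSp m F ∧
    Cfsg.IsInducedBySemilinearPSp g σ β := by
  set i : Fin m := ⟨0, by omega⟩ with hi
  set j : Fin m := ⟨1, by omega⟩ with hj
  have hij : i ≠ j := by
    intro h
    have := congrArg Fin.val h
    simp [hi, hj] at this
  obtain ⟨A₀, he, hf⟩ := exists_normalise_g p hm β h4 i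
  obtain ⟨g, σ, hg, hind⟩ := aut_form_normalised_g p hm _ (h4.conj_mul _) hij he hf
  refine ⟨(toGL A₀)⁻¹ * g, σ, mul_mem (inv_mem (toGL_mem_GSp A₀)) hg, ?_⟩
  intro s s' hs
  have h1 := hind s (A₀ * s' * A₀⁻¹) (by
    show A₀.1 * s'.1 * (A₀⁻¹).1 = _
    rw [hs, _root_.mul_inv_rev, inv_inv, Units.val_mul, Units.val_mul, ← map_inv, toGL_val, toGL_val]
    have h2 : A₀.1 * (A₀⁻¹).1 = 1 := by
      have : (A₀ * A₀⁻¹).1 = 1 := by rw [mul_inv_cancel]; rfl
      exact this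
    simp only [Matrix.mul_assoc]
    rw [h2, Matrix.mul_one, ← Matrix.mul_assoc A₀.1, h2, Matrix.one_mul])
  rw [MulAut.mul_apply, MulAut.conj_apply] at h1
  have h2 : pm A₀ * β (pm s) * (pm A₀)⁻¹ = pm A₀ * pm s' * (pm A₀)⁻¹ := h1
  exact mul_left_cancel (mul_right_cancel h2)

end

end Cfsg.Agent.Lib.Helper18.AutPSp
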